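import Cfsg.Agent.H71.D4Two.Group
import Mathlib.Algebra.Group.Conj

/-!
# ³D₄(2): every nontrivial element is a product of two conjugates of an element of order 21
-/

set_option autoImplicit false
set_option maxRecDepth 100000

namespace Cfsg.Agent.H71.D4Two

open Cfsg.Lie Cfsg.Agent.H23.D4Spec
open scoped Matrix

variable {K : Type*} [Field K] [CharP K 2] [Fintype K]

/-- The elements which are block triangular. -/
noncomputable def upG (β : Fin 8 → ℕ) : Subgroup ↥(twistedD4 K 2) where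
  carrier := {g | Up β (rho 2 g)}
  one_mem' := by simpa using Up.one (K := K) β
  mul_mem' {a b} ha hb := by simpa [map_mul] using Up.mul ha hb
  inv_mem' := by
    intro g hg
    have hn : 0 < orderOf g := (isOfFinOrder_of_finite g).orderOf_pos
    have hpow : ∀ n, Up β (rho 2 (g ^ n)) := fun n => by
      induction n with
      | zero => simpa using Up.one (K := K) β
      | succ n ih => rw [pow_succ, map_mul]; exact Up.mul ih hg
    have : g⁻¹ = g ^ (orderOf g - 1) := by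
      rw [inv_eq_iff_mul_eq_one, ← pow_succ', Nat.sub_add_cancel hn, pow_orderOf_eq_one]
    exact this ▸ hpow _

theorem mem_upG (β : Fin 8 → ℕ) (g : ↥(twistedD4 K 2)) : g ∈ upG β ↔ Up β (rho 2 g) := Iff.rfl

theorem Dg_inv_mul (β : Fin 8 → ℕ) {g : ↥(twistedD4 K 2)} (hg : g ∈ upG β) :
    Dg β (rho 2 g⁻¹) * Dg β (rho 2 g) = 1 := by
  rw [← Dg_mul ((mem_upG β _).1 (inv_mem hg)) ((mem_upG β _).1 hg), ← map_mul, inv_mul_cancel, map_one, Dg_one]

/-- The unipotent radical. -/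
noncomputable def ub (β : Fin 8 → ℕ) : Subgroup ↥(twistedD4 K 2) where
  carrier := {g | g ∈ upG β ∧ Dg β (rho 2 g) = 1}
  one_mem' := ⟨one_mem _, by rw [map_one, Dg_one]⟩
  mul_mem' {a b} ha hb := ⟨mul_mem ha.1 hb.1, by
    rw [map_mul, Dg_mul ((mem_upG β _).1 ha.1) ((mem_upG β _).1 hb.1), ha.2, hb.2, mul_one]⟩
  inv_mem' {a} ha := ⟨inv_mem ha.1, by have := Dg_inv_mul β ha.1; rwa [ha.2, mul_one] at this⟩

theorem mem_ub (β : Fin 8 → ℕ) (g : ↥(twistedD4 K 2)) : g ∈ ub β ↔ g ∈ upG β ∧ Dg β (rho 2 g) = 1 := Iff.rfl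

theorem ub_normal {β : Fin 8 → ℕ} {a v : ↥(twistedD4 K 2)} (ha : a ∈ upG β) (hv : v ∈ ub β) : a * v * a⁻¹ ∈ ub β := by
  refine ⟨mul_mem (mul_mem ha hv.1) (inv_mem ha), ?_⟩
  rw [map_mul, map_mul, Dg_mul (Up.mul ((mem_upG β _).1 ha) ((mem_upG β _).1 hv.1)) ((mem_upG β _).1 (inv_mem ha)),
    Dg_mul ((mem_upG β _).1 ha) ((mem_upG β _).1 hv.1), hv.2, mul_one]
  rw [← Dg_mul ((mem_upG β _).1 ha) ((mem_upG β _).1 (inv_mem ha)), ← map_mul, mul_inv_cancel, map_one, Dg_one]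

variable {ω : K}

theorem toM_powE (hω : ω ^ 3 = ω + 1) (w : ℕ) : ∀ e, toM ω (powE w e) = rho 2 (el ω w ^ e)
  | 0 => by rw [powE, toM_one, pow_zero, map_one]
  | e + 1 => by rw [powE, toM_app hω, toM_powE hω w e, ← rho_el, pow_succ', map_mul]

variable (hK : Fintype.card K = 8)

include hK

theorem pow_el (hω : ω ^ 3 = ω + 1) {w e v : ℕ} (h : powE w e = app v one) : el ω w ^ e = el ω v :=
  rho_injective hK (by rw [← toM_powE hω, h, rho_el_toM hω])

theorem x_pow (hω : ω ^ 3 = ω + 1) : el ω xW ^ 21 = 1 :=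
  rho_injective hK (by rw [← toM_powE hω, chk_xpow.1, toM_one, map_one])

theorem regular (hω : ω ^ 3 = ω + 1) {β : Fin 8 → ℕ} (hβ : β = blk ∨ β = blkR) {u : ↥(twistedD4 K 2)}
    (hu : u ∈ ub β) (hc : Commute (el ω xW) u) : u = 1 := by
  have key : ∀ e w, powE xW e = app w one → rho 2 u * toM ω (app w one) = toM ω (app w one) * rho 2 u := fun e w h => by
    rw [← h, toM_powE hω, ← map_mul, ← map_mul, (hc.pow_left e).eq]
  refine rho_injective hK ?_
  rw [map_one]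
  exact cent_trivial hω hβ hu.1 hu.2 (key 15 hW chk_xpow.2.1) (key 7 aW chk_xpow.2.2)

omit hK in
theorem lev_mem (hω : ω ^ 3 = ω + 1) (i : ℕ) (hi : i < 42) :
    lev ω i ∈ upG blk ∧ lev ω i ∈ upG blkR :=
  ⟨(lev_blocks hω i hi).1, (lev_blocks hω i hi).2.2⟩

theorem absorb (hω : ω ^ 3 = ω + 1) {β : Fin 8 → ℕ} (hβ : β = blk ∨ β = blkR) {a : ↥(twistedD4 K 2)}
    (ha : a ∈ upG β) (he : ∃ e : ℕ, a ^ e = el ω xW) :
    (∀ v ∈ ub β, IsConj a (v * a)) ∧ ∀ v ∈ ub β, IsConj a (a * v) := by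
  obtain ⟨e, he⟩ := he
  have key : ∀ v ∈ ub β, IsConj a (v * a) := by
    intro v hv
    let φ : ub (K := K) β → ub (K := K) β := fun w => ⟨(w : ↥(twistedD4 K 2)) * (a * (w : ↥(twistedD4 K 2))⁻¹ * a⁻¹),
      mul_mem w.2 (ub_normal ha (inv_mem w.2))⟩
    have hφ : Function.Injective φ := by
      rintro ⟨w, hw⟩ ⟨w', hw'⟩ h
      have h' : w * (a * w⁻¹ * a⁻¹) = w' * (a * w'⁻¹ * a⁻¹) := congrArg Subtype.val h
      have h1 : (w'⁻¹ * w) * a = a * (w'⁻¹ * w) := by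
        calc (w'⁻¹ * w) * a = w'⁻¹ * (w * (a * w⁻¹ * a⁻¹)) * (a * w) := by group
          _ = a * (w'⁻¹ * w) := by rw [h']; group
      have h2 : Commute (el ω xW) (w'⁻¹ * w) := by
        rw [← he]
        exact Commute.pow_left h1.symm e
      have h3 := regular hK hω hβ (mul_mem (inv_mem hw') hw) h2
      exact Subtype.ext (inv_mul_eq_one.1 h3).symm
    obtain ⟨w, hw⟩ := Finite.injective_iff_surjective.1 hφ ⟨v, hv⟩
    rw [isConj_iff]
    refine ⟨(w : ↥(twistedD4 K 2)), ?_⟩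
    rw [show v = (w : ↥(twistedD4 K 2)) * (a * (w : ↥(twistedD4 K 2))⁻¹ * a⁻¹) from (congrArg Subtype.val hw).symm]
    group
  refine ⟨key, fun v hv => ?_⟩
  have h := key _ (ub_normal ha hv)
  rwa [show a * v * a⁻¹ * a = a * v by group] at h

omit hK in
theorem clI_fin (n : ℕ) : ∃ a < 4, clI n = clI a := by
  by_cases h : n < 4
  · exact ⟨n, h, rfl⟩
  · refine ⟨3, by norm_num, ?_⟩
    obtain ⟨m, rfl⟩ : ∃ m, n = m + 4 := ⟨n - 4, by omega⟩
    rfl

theorem class_facts (hω : ω ^ 3 = ω + 1) (a : ℕ) (ha : a < 4) :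
    clI a < 42 ∧ IsConj (el ω xW) (lev ω (clI a)) ∧ ∃ e : ℕ, lev ω (clI a) ^ e = el ω xW := by
  have hb : ∀ a : Fin 4, clI a.val < 42 := by decide +kernel
  refine ⟨hb ⟨a, ha⟩, ?_, ?_⟩
  · have h := allFrom_spec chkCl_all a (Nat.zero_le _) (by omega)
    simp only [chkCl, Nat.beq_eq] at h
    refine isConj_iff.2 ⟨el ω (clK a), rho_injective hK ?_⟩
    rw [rho_lev hω _ (hb ⟨a, ha⟩), ← h, toM_app hω, toM_app hω, toM_appR hω, toM_one, mul_one, matR_el hω, ← rho_el,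
      ← rho_el, map_mul, map_mul, mul_assoc]
  · have h := allFrom_spec chk_pow a (Nat.zero_le _) (by omega)
    simp only [List.any_eq_true, Nat.beq_eq] at h
    obtain ⟨e, -, he⟩ := h
    exact ⟨e, pow_el hK hω he⟩

theorem good_lev (hω : ω ^ 3 = ω + 1) (l : ℕ) (hl : l < 42) (hk : dLKind.get l % 2 = 1) :
    ∃ a < 4, ∃ b < 4, lev ω l = lev ω (clI a) * lev ω (clI b) := by
  have h := checkL l hl
  simp only [chkL, Bool.and_eq_true, Bool.or_eq_true, Nat.beq_eq] at h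
  obtain ⟨a, ha, ea⟩ := clI_fin (dLKind.get l / 2 % 8)
  obtain ⟨b, hb, eb⟩ := clI_fin (dLKind.get l / 16)
  have h2 := h.2.resolve_left (by omega)
  rw [ea, eb] at h2
  refine ⟨a, ha, b, hb, rho_injective hK ?_⟩
  rw [rho_lev hω l hl, ← h2, toM_app hω, map_mul, ← rho_el, rho_lev hω _ (class_facts hK hω b hb).1]
  rfl

theorem exists_conj_not_par (hω : ω ^ 3 = ω + 1) {g : ↥(twistedD4 K 2)} (hg : g ≠ 1) :
    ∃ c : ↥(twistedD4 K 2), c * g * c⁻¹ ∉ par hω := by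
  have hS := (S1071.result (K := K) (q := 2) Nat.prime_two.isPrimePow (by rw [hK]; norm_num)).1
  by_contra hc
  push Not at hc
  have hmem : g ∈ (par hω).normalCore := fun c => hc c
  rcases hS.eq_bot_or_eq_top_of_normal _ (par hω).normalCore_normal with h | h
  · exact hg (by rwa [h, Subgroup.mem_bot] at hmem)
  · have h9 : el ω 9 ∈ par hω := Subgroup.normalCore_le _ (h ▸ Subgroup.mem_top _)
    have he : getE (app 9 one) 1 0 = 1 := by decide +kernel
    have hb : blk 0 < blk 1 := by decide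
    have := h9.1 1 0 hb
    rw [rho_el_toM hω] at this
    simp [toM, he, phi_one] at this

theorem covering (hω : ω ^ 3 = ω + 1) {g : ↥(twistedD4 K 2)} (hg : g ≠ 1) :
    ∃ a b, IsConj (el ω xW) a ∧ IsConj (el ω xW) b ∧ g = a * b := by
  obtain ⟨c, hc⟩ := exists_conj_not_par hK hω hg
  obtain ⟨i, hi, p, hp, hgp⟩ := decomposition hK hω (c * g * c⁻¹)
  obtain ⟨hk4, hparU, hUb⟩ := rep_facts i hi
  have hu : el ω (rU i) ∈ par hω := parF_el hK hω hparU hUb
  have hk0 : rK i ≠ 0 := by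
    intro h0
    refine hc ?_
    rw [hgp, rep, h0]
    exact mul_mem (mul_mem hu (parF_el hK hω (w := nW 0) (by decide +kernel) (by decide +kernel))) hp
  set q := p * el ω (rU i)
  have hq : q ∈ par hω := mul_mem hp hu
  obtain ⟨hqu, l, hl, hql⟩ := hq
  set r0 := (lev ω l)⁻¹ * q
  have hr0 : r0 ∈ ub blk := by
    refine ⟨mul_mem (inv_mem (lev_mem hω l hl).1) hqu, ?_⟩
    rw [map_mul, Dg_mul ((mem_upG blk _).1 (inv_mem (lev_mem hω l hl).1)) hqu, hql]
    have e : toM ω (dLMat.get l) = Dg blk (rho 2 (lev ω l)) := by rw [(lev_blocks hω l hl).2.1, rho_lev hω l hl]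
    rw [e, Dg_inv_mul blk (lev_mem hω l hl).1]
  set idx := (rK i - 1) * 42 + l
  have hidx : idx < 126 := by omega
  have e1 : idx % 42 = l := by omega
  have e2 : idx / 42 + 1 = rK i := by omega
  have hchk := allFrom_spec chkCert_all idx (Nat.zero_le _) (by omega)
  simp only [chkCert, Bool.and_eq_true, Nat.beq_eq, e1, e2] at hchk
  obtain ⟨⟨hkind, hv⟩, hR⟩ := hchk
  set y := el ω (dCertY.get idx)
  set v := el ω (dCertV.get idx / 64)
  set dI := dCertV.get idx % 64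
  have hdI : dI < 42 := by
    have hb : ∀ i : Fin 126, dCertV.get i.val % 64 < 42 := by decide +kernel
    exact hb ⟨idx, hidx⟩
  have hyb : dCertY.get idx < 32 ^ 64 := by
    have hb : ∀ i : Fin 126, dCertY.get i.val < 32 ^ 64 := by decide +kernel
    exact hb ⟨idx, hidx⟩
  have hy : y ∈ par hω := parF_el hK hω (allFrom_spec chk_certY idx (Nat.zero_le _) (by omega)) hyb
  have hvU : v ∈ ub blkR := by
    obtain ⟨h1, h2⟩ := lowWith_spec ω hv
    rw [← rho_el_toM hω] at h1 h2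
    exact ⟨h1, by rw [h2, toM_one]⟩
  set R := v⁻¹ * (y * (el ω (nW (rK i)) * (lev ω l * y⁻¹)))
  obtain ⟨hR1, hR2⟩ := upWith_spec ω hR
  have eR : rho 2 R = toM ω (appR (dCertV.get idx / 64)
      (app (dCertY.get idx) (app (nW (rK i)) (app (dLWord.get l) (appR (dCertY.get idx) one))))) := by
    rw [toM_appR hω, toM_app hω, toM_app hω, toM_app hω, toM_appR hω, toM_one, mul_one, matR_el hω, matR_el hω,
      ← rho_el, ← rho_el, ← rho_el]
    simp only [R, map_mul]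
    rfl
  rw [← eR] at hR1 hR2
  set u1 := (lev ω dI)⁻¹ * (R * (y * r0 * y⁻¹))
  have hu1 : u1 ∈ ub blk := by
    have hyr : y * r0 * y⁻¹ ∈ ub blk := ub_normal hy.1 hr0
    refine ⟨mul_mem (inv_mem (lev_mem hω dI hdI).1) (mul_mem hR1 hyr.1), ?_⟩
    rw [map_mul, Dg_mul ((mem_upG blk _).1 (inv_mem (lev_mem hω dI hdI).1))
      ((mem_upG blk _).1 (mul_mem hR1 hyr.1)), map_mul, Dg_mul hR1 hyr.1, hR2, hyr.2, mul_one,
      ← rho_lev hω dI hdI]
    conv_lhs => arg 2; rw [← (lev_blocks hω dI hdI).2.1]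
    exact Dg_inv_mul blk (lev_mem hω dI hdI).1
  obtain ⟨a, ha, b, hb, hd⟩ := good_lev hK hω dI hdI hkind
  obtain ⟨hia, hca, hpa⟩ := class_facts hK hω a ha
  obtain ⟨hib, hcb, hpb⟩ := class_facts hK hω b hb
  have hA : IsConj (el ω xW) (v * lev ω (clI a)) :=
    hca.trans ((absorb hK hω (Or.inr rfl) (lev_mem hω _ hia).2 hpa).1 v hvU)
  have hB : IsConj (el ω xW) (lev ω (clI b) * u1) :=
    hcb.trans ((absorb hK hω (Or.inl rfl) (lev_mem hω _ hib).1 hpb).2 u1 hu1)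
  set k := (y * (el ω (rU i))⁻¹ * c)⁻¹
  refine ⟨k * (v * lev ω (clI a)) * k⁻¹, k * (lev ω (clI b) * u1) * k⁻¹,
    hA.trans (isConj_iff.2 ⟨k, rfl⟩), hB.trans (isConj_iff.2 ⟨k, rfl⟩), ?_⟩
  have hd' : lev ω (clI b) = (lev ω (clI a))⁻¹ * lev ω dI := by rw [hd]; group
  have hp' : p = (rep ω i)⁻¹ * (c * g * c⁻¹) := by rw [hgp]; group
  simp only [k, u1, R, r0, q, rep, hd', hp']
  group

omit [CharP K 2] in
theorem exists_two [CharP K 2] : ∃ x : ↥(twistedD4 K 2), Odd (orderOf x) ∧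
    ∀ g : ↥(twistedD4 K 2), g ≠ 1 → ∃ a b, IsConj x a ∧ IsConj x b ∧ g = a * b := by
  obtain ⟨ω, hω⟩ := exists_omega hK
  refine ⟨el ω xW, ?_, fun g hg => covering hK hω hg⟩
  exact Odd.of_dvd_nat (by decide) (orderOf_dvd_of_pow_eq_one (x_pow hK hω))

end Cfsg.Agent.H71.D4Two
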