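import Cfsg.Agent.H71.D4Two.Sound

/-!
# Block triangular matrices and a trivial centraliser
-/

set_option autoImplicit false
set_option maxRecDepth 100000

namespace Cfsg.Agent.H71.D4Two

open Cfsg.Agent.H23.D4Spec
open scoped Matrix

/-- The flag of blocks. -/
def blk : Fin 8 → ℕ := ![0, 1, 1, 2, 4, 3, 3, 2]

/-- The reversed flag. -/
def blkR (i : Fin 8) : ℕ := 4 - blk i

variable {K : Type*} [Field K] [CharP K 2]

/-- Block upper triangular. -/
def Up (β : Fin 8 → ℕ) (M : M8 K) : Prop := ∀ i j, β j < β i → M i j = 0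

/-- The block diagonal. -/
def Dg (β : Fin 8 → ℕ) (M : M8 K) : M8 K := Matrix.of fun i j => if β i = β j then M i j else 0

theorem Up.one (β : Fin 8 → ℕ) : Up β (1 : M8 K) := fun i j h =>
  Matrix.one_apply_ne (by rintro rfl; exact lt_irrefl _ h)

theorem Dg_one (β : Fin 8 → ℕ) : Dg β (1 : M8 K) = 1 := by
  ext i j
  simp only [Dg, Matrix.of_apply, Matrix.one_apply]
  split_ifs with h1 h2 <;> simp_all

theorem Up.mul {β : Fin 8 → ℕ} {A B : M8 K} (hA : Up β A) (hB : Up β B) : Up β (A * B) := fun i j h => by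
  rw [Matrix.mul_apply]
  refine Finset.sum_eq_zero fun k _ => ?_
  by_cases hk : β k < β i
  · rw [hA i k hk, zero_mul]
  · rw [hB k j (by omega), mul_zero]

theorem Dg_mul {β : Fin 8 → ℕ} {A B : M8 K} (hA : Up β A) (hB : Up β B) : Dg β (A * B) = Dg β A * Dg β B := by
  ext i j
  simp only [Dg, Matrix.of_apply, Matrix.mul_apply]
  split_ifs with hij
  · refine Finset.sum_congr rfl fun k _ => ?_
    rcases lt_trichotomy (β k) (β i) with h | h | h
    · rw [hA i k h, zero_mul, if_neg (by omega), zero_mul]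
    · rw [if_pos h.symm, if_pos (by omega)]
    · rw [hB k j (by omega), mul_zero, if_neg (by omega), zero_mul]
  · refine (Finset.sum_eq_zero fun k _ => ?_).symm
    by_cases h1 : β i = β k
    · rw [if_neg (fun h2 : β k = β j => hij (h1.trans h2)), mul_zero]
    · rw [if_neg h1, zero_mul]

theorem Dg_blkR (M : M8 K) : Dg blkR M = Dg blk M := by
  have h : ∀ i j : Fin 8, blkR i = blkR j ↔ blk i = blk j := by decide +kernel
  ext i j
  simp only [Dg, Matrix.of_apply, h i j]

theorem mask_entries : ∀ i j : Fin 8,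
    getE below i.val j.val = (if blk j < blk i then 7 else 0) ∧
    getE above i.val j.val = (if blkR j < blkR i then 7 else 0) ∧
    getE diag i.val j.val = (if blk i = blk j then 7 else 0) := by decide +kernel

theorem and_seven {x : ℕ} (hx : x < 8) : x &&& 7 = x := by
  rw [show (7 : ℕ) = 2 ^ 3 - 1 from rfl, Nat.and_two_pow_sub_one_eq_mod, Nat.mod_eq_of_lt hx]

theorem getE_zero (i j : ℕ) : getE 0 i j = 0 := by simp [getE]

theorem Dg_of_mask {m d : ℕ} (ω : K) (h : m &&& diag = d) : Dg blk (toM ω m) = toM ω d := by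
  ext i j
  simp only [Dg, Matrix.of_apply, toM, ← h, getE_and, (mask_entries i j).2.2]
  split_ifs
  · rw [and_seven (getE_lt ..)]
  · rw [Nat.and_zero, phi_zero]

theorem upWith_spec {m d : ℕ} (ω : K) (h : upWith d m = true) :
    Up blk (toM ω m) ∧ Dg blk (toM ω m) = toM ω d := by
  simp only [upWith, Bool.and_eq_true, Nat.beq_eq] at h
  refine ⟨fun i j hij => ?_, Dg_of_mask ω h.2⟩
  have := getE_and m below i.val j.val
  rw [h.1, (mask_entries i j).1, if_pos hij, and_seven (getE_lt ..), getE_zero] at this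
  simp [toM, ← this, phi_zero]

theorem lowWith_spec {m d : ℕ} (ω : K) (h : lowWith d m = true) :
    Up blkR (toM ω m) ∧ Dg blkR (toM ω m) = toM ω d := by
  simp only [lowWith, Bool.and_eq_true, Nat.beq_eq] at h
  refine ⟨fun i j hij => ?_, by rw [Dg_blkR]; exact Dg_of_mask ω h.2⟩
  have := getE_and m above i.val j.val
  rw [h.1, (mask_entries i j).2.1, if_pos hij, and_seven (getE_lt ..), getE_zero] at this
  simp [toM, ← this, phi_zero]

/-! ## The centraliser of the element of order 21 -/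

/-- Diagonal of the element of order 7. -/
def hd : Fin 8 → ℕ := ![6, 3, 3, 2, 3, 6, 6, 5]

theorem h_entries : ∀ i j : Fin 8, getE (app hW one) i.val j.val = if i = j then hd i else 0 := by
  decide +kernel

theorem a_entries : ∀ i j : Fin 8, getE (app aW one) i.val j.val =
    if (i, j) = (0, 0) ∨ (i, j) = (1, 2) ∨ (i, j) = (2, 1) ∨ (i, j) = (2, 2) ∨ (i, j) = (3, 3) ∨ (i, j) = (4, 4) ∨
      (i, j) = (5, 5) ∨ (i, j) = (5, 6) ∨ (i, j) = (6, 5) ∨ (i, j) = (7, 7) then 1 else 0 := by
  decide +kernel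

theorem hd_lt : ∀ i, hd i < 8 := by decide +kernel

theorem hd_eq_upper : ∀ i j : Fin 8, ¬ (blk i < blk j ∧ hd i = hd j) ∨
    (i = 0 ∧ j = 5) ∨ (i = 0 ∧ j = 6) ∨ (i = 1 ∧ j = 4) ∨ (i = 2 ∧ j = 4) := by decide +kernel

theorem hd_eq_lower : ∀ i j : Fin 8, ¬ (blkR i < blkR j ∧ hd i = hd j) ∨
    (i = 5 ∧ j = 0) ∨ (i = 6 ∧ j = 0) ∨ (i = 4 ∧ j = 1) ∨ (i = 4 ∧ j = 2) := by decide +kernel

theorem offdiag_zero {ω : K} (hω : ω ^ 3 = ω + 1) {u : M8 K}
    (hu : u * toM ω (app hW one) = toM ω (app hW one) * u) {i j : Fin 8} (h : hd i ≠ hd j) : u i j = 0 := by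
  have hH : toM ω (app hW one) = Matrix.diagonal fun k => phi ω (hd k) := by
    ext a b
    simp only [toM, Matrix.of_apply, h_entries, Matrix.diagonal_apply]
    split_ifs <;> simp [phi_zero]
  have e := congrFun (congrFun hu i) j
  rw [hH, Matrix.mul_diagonal, Matrix.diagonal_mul] at e
  by_contra hne
  refine h (phi_inj hω (hd_lt i) (hd_lt j) ?_)
  exact (mul_left_cancel₀ hne (e.trans (mul_comm _ _))).symm

theorem cent_trivial {ω : K} (hω : ω ^ 3 = ω + 1) {β : Fin 8 → ℕ} (hβ : β = blk ∨ β = blkR) {u : M8 K}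
    (hup : Up β u) (hdg : Dg β u = 1)
    (hh : u * toM ω (app hW one) = toM ω (app hW one) * u)
    (ha : u * toM ω (app aW one) = toM ω (app aW one) * u) : u = 1 := by
  ext i j
  by_cases hb : β i = β j
  · have := congrFun (congrFun hdg i) j
    simpa [Dg, hb] using this
  have hne : i ≠ j := by rintro rfl; exact hb rfl
  rw [Matrix.one_apply_ne hne]
  by_cases hlt : β j < β i
  · exact hup i j hlt
  by_cases hd' : hd i = hd j
  · have hlt' : β i < β j := by omega
    rcases hβ with rfl | rfl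
    · have e05 := congrFun (congrFun ha 0) 5
      have e06 := congrFun (congrFun ha 0) 6
      have e14 := congrFun (congrFun ha 1) 4
      have e24 := congrFun (congrFun ha 2) 4
      simp [Matrix.mul_apply, Fin.sum_univ_eight, toM, a_entries, phi_zero, phi_one] at e05 e06 e14 e24
      rcases (hd_eq_upper i j).resolve_left (not_not_intro ⟨hlt', hd'⟩) with h | h | h | h <;>
        obtain ⟨rfl, rfl⟩ := h <;> grind
    · have e50 := congrFun (congrFun ha 5) 0
      have e60 := congrFun (congrFun ha 6) 0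
      have e41 := congrFun (congrFun ha 4) 1
      have e42 := congrFun (congrFun ha 4) 2
      simp [Matrix.mul_apply, Fin.sum_univ_eight, toM, a_entries, phi_zero, phi_one] at e50 e60 e41 e42
      rcases (hd_eq_lower i j).resolve_left (not_not_intro ⟨hlt', hd'⟩) with h | h | h | h <;>
        obtain ⟨rfl, rfl⟩ := h <;> grind
  · exact offdiag_zero hω hh hd'

end Cfsg.Agent.H71.D4Two
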