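import Cfsg.Agent.H71.D4Two.Tree

/-! Certificate data. -/

set_option autoImplicit false
set_option maxRecDepth 100000

namespace Cfsg.Agent.H71.D4Two

/-- Data. -/
def dLClose : Tree :=
.B (.B (.B (.B (.B (.B (.L 0x3081)
  (.L 0x963))
  (.B (.L 0x162d5)
  (.E)))
  (.B (.B (.L 0xe34b)
  (.L 0x6a65))
  (.B (.L 0x1e6d3)
  (.E))))
  (.B (.B (.B (.L 0xa049)
  (.L 0x2899f))
  (.B (.L 0x1a657)
  (.E)))
  (.B (.B (.L 0x123c7)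
  (.E))
  (.B (.L 0x225e1)
  (.E)))))
  (.B (.B (.B (.B (.L 0x7006)
  (.L 0x27766))
  (.B (.L 0x1854d)
  (.E)))
  (.B (.B (.L 0x1014f)
  (.E))
  (.B (.L 0x207dd)
  (.E))))
  (.B (.B (.B (.L 0xc242)
  (.L 0x29922))
  (.B (.L 0x1c45b)
  (.E)))
  (.B (.B (.L 0x144d1)
  (.E))
  (.B (.L 0x24859)
  (.E))))))
  (.B (.B (.B (.B (.B (.L 0x5100)
  (.L 0x2679c))
  (.B (.L 0x1758e)
  (.E)))
  (.B (.B (.L 0xf184)
  (.L 0x9a27))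
  (.B (.L 0x1f51e)
  (.E))))
  (.B (.B (.B (.L 0xb283)
  (.L 0x2828))
  (.B (.L 0x1b490)
  (.E)))
  (.B (.B (.L 0x13212)
  (.E))
  (.B (.L 0x2389a)
  (.E)))))
  (.B (.B (.B (.B (.L 0x81c5)
  (.L 0x19e0))
  (.B (.L 0x19398)
  (.E)))
  (.B (.B (.L 0x11408)
  (.E))
  (.B (.L 0x21616)
  (.E))))
  (.B (.B (.B (.L 0xd0cc)
  (.L 0x48e9))
  (.B (.L 0x1d714)
  (.E)))
  (.B (.B (.L 0x1530a)
  (.E))
  (.B (.L 0x256a4)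
  (.E))))))

end Cfsg.Agent.H71.D4Two
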