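import Cfsg.Agent.H71.D4Two.Tree

/-! Certificate data. -/

set_option autoImplicit false
set_option maxRecDepth 100000

namespace Cfsg.Agent.H71.D4Two

/-- Data. -/
def dLKind : Tree :=
.B (.B (.B (.B (.B (.B (.L 0x17)
  (.L 0))
  (.B (.L 0x1)
  (.E)))
  (.B (.B (.L 0x3)
  (.L 0))
  (.B (.L 0)
  (.E))))
  (.B (.B (.B (.L 0x7)
  (.L 0x25))
  (.B (.L 0)
  (.E)))
  (.B (.B (.L 0)
  (.E))
  (.B (.L 0)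
  (.E)))))
  (.B (.B (.B (.B (.L 0)
  (.L 0x37))
  (.B (.L 0x13)
  (.E)))
  (.B (.B (.L 0)
  (.E))
  (.B (.L 0x27)
  (.E))))
  (.B (.B (.B (.L 0x15)
  (.L 0))
  (.B (.L 0)
  (.E)))
  (.B (.B (.L 0)
  (.E))
  (.B (.L 0)
  (.E))))))
  (.B (.B (.B (.B (.B (.L 0)
  (.L 0))
  (.B (.L 0)
  (.E)))
  (.B (.B (.L 0)
  (.L 0))
  (.B (.L 0)
  (.E))))
  (.B (.B (.B (.L 0)
  (.L 0))
  (.B (.L 0)
  (.E)))
  (.B (.B (.L 0)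
  (.E))
  (.B (.L 0)
  (.E)))))
  (.B (.B (.B (.B (.L 0)
  (.L 0))
  (.B (.L 0)
  (.E)))
  (.B (.B (.L 0)
  (.E))
  (.B (.L 0)
  (.E))))
  (.B (.B (.B (.L 0)
  (.L 0))
  (.B (.L 0)
  (.E)))
  (.B (.B (.L 0)
  (.E))
  (.B (.L 0)
  (.E))))))

end Cfsg.Agent.H71.D4Two
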