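import Cfsg.Agent.H71.D4Two.Tree

/-! Certificate data. -/

set_option autoImplicit false
set_option maxRecDepth 100000

namespace Cfsg.Agent.H71.D4Two

/-- Data. -/
def dLMat : Tree :=
.B (.B (.B (.B (.B (.B (.L 0x200000040000008000001000000200000040000008000001)
  (.L 0x4000000c0000018000006000000a00000180000030000003))
  (.B (.L 0xe00000090000080000005000000800000028000168000002)
  (.E)))
  (.B (.B (.L 0xe00000080000010000005000000800000140000028000002)
  (.L 0x4000000180000d8000006000000a000001b0000180000003))
  (.B (.L 0xc000000380001f8000004000000600000120000100000007)
  (.E))))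
  (.B (.B (.B (.L 0x200000048000040000001000000200000008000048000001)
  (.L 0x800000028000168000002000000e00000090000080000005))
  (.B (.L 0x600000100000020000007000000c000001c0000038000004)
  (.E)))
  (.B (.B (.L 0xa000000300001b00000030000004000000d80000c0000006)
  (.E))
  (.B (.L 0x600000120000100000007000000c000000380001f8000004)
  (.E)))))
  (.B (.B (.B (.B (.L 0x200000040000048000001000000200000048000008000001)
  (.L 0x800000168000140000002000000e00000010000090000005))
  (.B (.L 0xe00000010000090000005000000800000168000140000002)
  (.E)))
  (.B (.B (.L 0xa000001b00001800000030000004000000180000d8000006)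
  (.E))
  (.B (.L 0x800000140000028000002000000e00000080000010000005)
  (.E))))
  (.B (.B (.B (.L 0x200000008000048000001000000200000048000040000001)
  (.L 0x800000028000140000002000000e00000010000080000005))
  (.B (.L 0xc000001f80001c0000004000000600000020000120000007)
  (.E)))
  (.B (.B (.L 0xc000001c0000038000004000000600000100000020000007)
  (.E))
  (.B (.L 0x600000020000120000007000000c000001f80001c0000004)
  (.E))))))
  (.B (.B (.B (.B (.B (.L 0x200000048000008000001000000200000040000048000001)
  (.L 0x600000020000100000007000000c000000380001c0000004))
  (.B (.L 0xc000001f8000038000004000000600000100000120000007)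
  (.E)))
  (.B (.B (.L 0x200000008000040000001000000200000008000040000001)
  (.L 0x4000000180000c0000006000000a00000030000180000003))
  (.B (.L 0x600000100000120000007000000c000001f8000038000004)
  (.E))))
  (.B (.B (.B (.L 0xa000001b00000300000030000004000000c00000d8000006)
  (.L 0x4000000c00000d8000006000000a000001b0000030000003))
  (.B (.L 0xe00000010000080000005000000800000028000140000002)
  (.E)))
  (.B (.B (.L 0xe00000080000090000005000000800000168000028000002)
  (.E))
  (.B (.L 0x800000168000028000002000000e00000080000090000005)
  (.E)))))
  (.B (.B (.B (.B (.L 0xa000001800000300000030000004000000c0000018000006)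
  (.L 0x4000000d8000018000006000000a000001800001b0000003))
  (.B (.L 0xc000001c00001f8000004000000600000120000020000007)
  (.E)))
  (.B (.B (.L 0xe00000090000010000005000000800000140000168000002)
  (.E))
  (.B (.L 0xc000000380001c0000004000000600000020000100000007)
  (.E))))
  (.B (.B (.B (.L 0xa000001800001b00000030000004000000d8000018000006)
  (.L 0x4000000d80000c0000006000000a000000300001b0000003))
  (.B (.L 0x600000120000020000007000000c000001c00001f8000004)
  (.E)))
  (.B (.B (.L 0xa000000300001800000030000004000000180000c0000006)
  (.E))
  (.B (.L 0x800000140000168000002000000e00000090000010000005)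
  (.E))))))

end Cfsg.Agent.H71.D4Two
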