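import Cfsg.Agent.H71.D4Two.Tree

/-! Certificate data. -/

set_option autoImplicit false
set_option maxRecDepth 100000

namespace Cfsg.Agent.H71.D4Two

/-- Data. -/
def dLWord : Tree :=
.B (.B (.B (.B (.B (.B (.L 0)
  (.L 0x719417194171941719417194171941))
  (.B (.L 0x1c6505c650630)
  (.E)))
  (.B (.B (.L 0x7194171941)
  (.L 0x1c6505c6505c6505c6505c6505c650611))
  (.B (.L 0x1c6505c6505c650611)
  (.E))))
  (.B (.B (.B (.L 0x230)
  (.L 0x1c6505c6505c6505c6505c650611))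
  (.B (.L 0x71941719417194171941)
  (.E)))
  (.B (.B (.L 0x1c650611)
  (.E))
  (.B (.L 0x1c6505c6505c6505c650630)
  (.E)))))
  (.B (.B (.B (.B (.L 0x11)
  (.L 0x1c6505c6505c6505c6505c650630))
  (.B (.L 0x1c6505c650611)
  (.E)))
  (.B (.B (.L 0x1c650630)
  (.E))
  (.B (.L 0x7194171941719417194171941)
  (.E))))
  (.B (.B (.B (.L 0x211)
  (.L 0x38ca0b8ca0b8ca0b8ca0b8ca0c230))
  (.B (.L 0x1c6505c6505c650630)
  (.E)))
  (.B (.B (.L 0x719417194171941)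
  (.E))
  (.B (.L 0x1c6505c6505c6505c650611)
  (.E))))))
  (.B (.B (.B (.B (.B (.L 0x10)
  (.L 0x38ca0b8ca0b8ca0b8ca0c230))
  (.B (.L 0xe3282e3282e32830)
  (.E)))
  (.B (.B (.L 0x4230)
  (.L 0x38ca0b8ca0b8ca0b8ca0b8ca0b8ca0c230))
  (.B (.L 0xe3282e3282e3282e32831)
  (.E))))
  (.B (.B (.B (.L 0xe32830)
  (.L 0xe3282e3282e3282e3282e3282e32831))
  (.B (.L 0x38ca0b8ca0c230)
  (.E)))
  (.B (.B (.L 0xe3282e32831)
  (.E))
  (.B (.L 0xe3282e3282e3282e3282e32830)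
  (.E)))))
  (.B (.B (.B (.B (.L 0x71941)
  (.L 0xe3282e3282e3282e3282e3282e32830))
  (.B (.L 0xe3282e3282e32831)
  (.E)))
  (.B (.B (.L 0xe3282e32830)
  (.E))
  (.B (.L 0x38ca0b8ca0b8ca0c230)
  (.E))))
  (.B (.B (.B (.L 0xe32831)
  (.L 0x1c6505c6505c6505c6505c6505c650630))
  (.B (.L 0xe3282e3282e3282e32830)
  (.E)))
  (.B (.B (.L 0x38ca0c230)
  (.E))
  (.B (.L 0xe3282e3282e3282e3282e32831)
  (.E))))))

end Cfsg.Agent.H71.D4Two
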