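import Cfsg.Agent.H71.D4Two.Eval
import Cfsg.Agent.H71.D4Two.LMat
import Cfsg.Agent.H71.D4Two.LWord
import Cfsg.Agent.H71.D4Two.LClose
import Cfsg.Agent.H71.D4Two.LKind
import Cfsg.Agent.H71.D4Two.CertY
import Cfsg.Agent.H71.D4Two.CertV

/-! Checks for the Levi complement and the conjugation certificates. -/

set_option autoImplicit false
set_option maxRecDepth 100000

namespace Cfsg.Agent.H71.D4Two

/-- Indices of the four class members inside the Levi complement. -/
def clI : ℕ → ℕ
  | 0 => 12
  | 1 => 10
  | 2 => 39
  | _ => 40

/-- Their conjugators. -/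
def clK : ℕ → ℕ
  | 0 => 0
  | 1 => 0x10
  | 2 => 0x290c2300a4308c0290c230
  | _ => 0x40290c2300a4308c0290c230

/-- The three double coset representatives. -/
def nW : ℕ → ℕ
  | 0 => 0
  | 1 => 0x521
  | 2 => 0x14861180521
  | _ => 0x290c2300a4308c0290c230

/-- Check of one element of the Levi complement. -/
def chkL (i : ℕ) : Bool :=
  let m := dLMat.get i
  let w := dLWord.get i
  let c := dLClose.get i
  let k := dLKind.get i
  Nat.beq (app w one) m && upWith m m && lowWith m m &&
    Nat.beq (app 16 m) (dLMat.get (c % 64)) &&
    Nat.beq (app 17 m) (dLMat.get (c / 64 % 64)) &&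
    Nat.beq (app hW m) (dLMat.get (c / 4096)) &&
    (Nat.beq (k % 2) 0 ||
      Nat.beq (app (dLWord.get (clI (k / 2 % 8))) (dLMat.get (clI (k / 16)))) m)

/-- Check of one class member. -/
def chkCl (a : ℕ) : Bool :=
  Nat.beq (app (clK a) (app xW (appR (clK a) one))) (dLMat.get (clI a))

/-- Check of one certificate: `v⁻¹ y n l y⁻¹` is upper triangular, its diagonal is a good element. -/
def chkCert (i : ℕ) : Bool :=
  let y := dCertY.get i
  let c := dCertV.get i
  let v := c / 64
  Nat.beq (dLKind.get (c % 64) % 2) 1 &&
    lowWith one (app v one) &&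
    upWith (dLMat.get (c % 64)) (appR v (app y (app (nW (i / 42 + 1)) (app (dLWord.get (i % 42)) (appR y one)))))

theorem chkL_all : allFrom chkL 0 42 = true := by decide +kernel

theorem chkCl_all : allFrom chkCl 0 4 = true := by decide +kernel

theorem chkCert_all : allFrom chkCert 0 126 = true := by decide +kernel

theorem powers : Nat.beq (appF 200 xW one) (app hW (app aW one)) ∧
    Nat.beq (app xW (app xW (app xW (app xW (app xW (app xW (app xW one))))))) (app aW one) = true ∧
    Nat.beq (app xW (app xW (app xW (app xW (app xW (app xW (app xW (app xW (app xW (app xW (app xW (app xW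
      (app xW (app xW (app xW one))))))))))))))) (app hW one) = true := by decide +kernel

end Cfsg.Agent.H71.D4Two
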