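import Cfsg.Agent.H71.D4Two.Tree

/-!
# Packed matrices over the field with eight elements

A matrix is one number; the entry `(i, j)` occupies the three bits starting at `24 * i + 3 * j`.
-/

set_option autoImplicit false

namespace Cfsg.Agent.H71.D4Two

/-- Product in the field with eight elements. -/
def mulE (a b : ℕ) : ℕ := (0x73157889d3f0cfa868356ee0467b98bcbd10fac688000000 >>> (3 * (8 * a + b))) &&& 7

/-- The first bits of the entries of a row. -/
def mask : ℕ := 0o11111111

/-- Scalar times row. -/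
def mulRow (c r : ℕ) : ℕ :=
  ((r &&& mask) * c) ^^^ (((r >>> 1) &&& mask) * mulE c 2) ^^^ (((r >>> 2) &&& mask) * mulE c 4)

/-- A row. -/
def row (b st : ℕ) : ℕ := (st >>> (24 * b)) &&& 0xffffff

/-- Left multiplication by `1 + t E(a,b) + t E(c,d)`. -/
def op2 (a b c d t st : ℕ) : ℕ :=
  st ^^^ (mulRow t (row b st) <<< (24 * a)) ^^^ (mulRow t (row d st) <<< (24 * c))

/-- Left multiplication by a letter. -/
def letter (l st : ℕ) : ℕ :=
  bif Nat.beq l 16 then op2 1 2 6 5 1 st
  else bif Nat.beq l 17 then op2 2 1 5 6 1 st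
  else bif Nat.blt l 8 then
    op2 0 1 5 4 l (op2 2 3 7 6 (mulE l l) (op2 2 7 3 6 (mulE (mulE l l) (mulE l l)) st))
  else
    op2 1 0 4 5 (l % 8) (op2 3 2 6 7 (mulE (l % 8) (l % 8))
      (op2 6 3 7 2 (mulE (mulE (l % 8) (l % 8)) (mulE (l % 8) (l % 8))) st))

/-- Apply a word (base 32, last letter lowest). -/
def appF : ℕ → ℕ → ℕ → ℕ
  | 0, _, st => st
  | f + 1, w, st => bif Nat.beq w 0 then st else appF f (w / 32) (letter (w % 32) st)

/-- Apply the reversed word. -/
def appRF : ℕ → ℕ → ℕ → ℕ
  | 0, _, st => st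
  | f + 1, w, st => bif Nat.beq w 0 then st else letter (w % 32) (appRF f (w / 32) st)

/-- Apply a word. -/
def app (w st : ℕ) : ℕ := appF 64 w st

/-- Apply a reversed word. -/
def appR (w st : ℕ) : ℕ := appRF 64 w st

/-- Three bits at a given place. -/
def putE (i j v : ℕ) : ℕ := v <<< (24 * i + 3 * j)

/-- The identity. -/
def one : ℕ := putE 0 0 1 ^^^ putE 1 1 1 ^^^ putE 2 2 1 ^^^ putE 3 3 1 ^^^ putE 4 4 1 ^^^ putE 5 5 1 ^^^
  putE 6 6 1 ^^^ putE 7 7 1

end Cfsg.Agent.H71.D4Two

namespace Cfsg.Agent.H71.D4Two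

/-- Entries below the block diagonal. -/
def below : ℕ := 0x1ffe00fffe00fffff8fff0001ff000007000007000000

/-- Entries above the block diagonal. -/
def above : ℕ := 0x1ff0000070000070000000001ff000fffe00fffe00fffff8

/-- Entries in the block diagonal. -/
def diag : ℕ := 0xe00e001f80001f8000007000e00e000001f80001f8000007

/-- Block upper triangular with the given block diagonal. -/
def upWith (d m : ℕ) : Bool := Nat.beq (m &&& below) 0 && Nat.beq (m &&& diag) d

/-- Block lower triangular with the given block diagonal. -/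
def lowWith (d m : ℕ) : Bool := Nat.beq (m &&& above) 0 && Nat.beq (m &&& diag) d

/-- The element of order 7. -/
def hW : ℕ := 0x71941

/-- The element of order 3. -/
def aW : ℕ := 0x211

/-- The element of order 21. -/
def xW : ℕ := 0x1c650611

end Cfsg.Agent.H71.D4Two
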