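import Cfsg.Agent.H71.D4Two.RepDefs

/-! Checks for the coset representatives, part 2. -/

set_option autoImplicit false
set_option maxRecDepth 100000

namespace Cfsg.Agent.H71.D4Two

theorem chkR_part2 : allFrom chkR 1024 512 = true := by decide +kernel

end Cfsg.Agent.H71.D4Two
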