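import Cfsg.Agent.H71.D4Two.RepDefs

/-! Small checks: letters, generators, powers. -/

set_option autoImplicit false
set_option maxRecDepth 100000

namespace Cfsg.Agent.H71.D4Two

/-- The letters as words in the four generators. -/
def sword : ℕ → ℕ
  | 1 => 0x108c04912450141228263014050
  | 2 => 2
  | 3 => 0x2118092248a02824504c60280a02
  | 4 => 0x108c131140508c0491423014050
  | 5 => 0x4230141228245180a11141224c450
  | 6 => 0x2118262280a11809228460280a02
  | 7 => 0x846028245048a30142228244988a02
  | 9 => 9
  | 10 => 0x1180a098c131824504c6098a630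
  | 11 => 0x2298c131824504c6098c12284609
  | 12 => 0x2298a630124514c5224c4504c609
  | 13 => 0x108c131124498a62248a114c531
  | 14 => 0x4c6098a629124504c5318244914131
  | 15 => 0x46098a629124504c5318244914131
  | 16 => 16
  | 17 => 17
  | _ => 0

/-- All letters are among the four generators. -/
def genF : ℕ → ℕ → Bool
  | 0, w => Nat.beq w 0
  | f + 1, w => bif Nat.beq w 0 then true else
      (Nat.beq (w % 32) 2 || Nat.beq (w % 32) 9 || Nat.beq (w % 32) 16 || Nat.beq (w % 32) 17) && genF f (w / 32)

/-- All letters are among the generators of the Levi complement. -/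
def levF : ℕ → ℕ → Bool
  | 0, w => Nat.beq w 0
  | f + 1, w => bif Nat.beq w 0 then true else
      (bif Nat.beq (w % 32) 16 || Nat.beq (w % 32) 17 then levF f (w / 32)
       else Nat.beq (w % (32 ^ 4)) hW && levF f (w / 32 ^ 4))

/-- Powers of a word. -/
def powE (w : ℕ) : ℕ → ℕ
  | 0 => one
  | e + 1 => app w (powE w e)

theorem chk_sword : allFrom (fun l => genF 40 (sword l) && Nat.beq (app (sword l) one) (letter l one)) 0 18 = true := by
  decide +kernel

theorem chk_parLetters : allFrom (fun l => upWith one (app l one)) 0 8 = true := by decide +kernel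

theorem chk_levWords : allFrom (fun i => levF 40 (dLWord.get i)) 0 42 = true := by decide +kernel

theorem chk_certY : allFrom (fun i => parF 40 (dCertY.get i)) 0 126 = true := by decide +kernel

theorem chk_zero : dLWord.get 0 = 0 ∧ dRWord.get 0 = 0 ∧ dRMat.get 0 = one ∧ dLMat.get 0 = one ∧
    app 9 one &&& below ≠ 0 ∧ app xW one ≠ one := by decide +kernel

theorem chk_pow : allFrom (fun a => (List.range 21).any fun e =>
    Nat.beq (powE (dLWord.get (clI a)) e) (app xW one)) 0 4 = true := by decide +kernel

theorem chk_xpow : powE xW 21 = one ∧ powE xW 15 = app hW one ∧ powE xW 7 = app aW one := by decide +kernel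

end Cfsg.Agent.H71.D4Two
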