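import Cfsg.Agent.H71.D4Two.Blocks
import Cfsg.Agent.H71.D4Two.Small
import Cfsg.Agent.H71.D4Two.Rep0
import Cfsg.Agent.H71.D4Two.Rep1
import Cfsg.Agent.H71.D4Two.Rep2
import Cfsg.Agent.H71.D4Two.Rep3
import Cfsg.Agent.H71.D4Two.Rep4

/-!
# The parabolic subgroup and the coset decomposition in ³D₄(2)
-/

set_option autoImplicit false
set_option maxRecDepth 100000

namespace Cfsg.Agent.H71.D4Two

open Cfsg.Lie Cfsg.Agent.H46 Cfsg.Agent.H23.D4Spec Cfsg.Agent.H88.AltD4Twist
open scoped Matrix MatrixGroups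

variable {K : Type*} [Field K] [CharP K 2]

theorem exists_B' : ∃ g : ↥(twistedD4 K 2), rho 2 g = two 2 1 5 6 1 := by
  obtain ⟨-, h9, -⟩ := nz_two
  have hw : [(9, (1 : K))] ∈ d4Words K 2 := Or.inl ⟨1, one_pow 2, d4m2, by simp, rfl⟩
  refine ⟨⟨goodD4.xg 9 1, Subgroup.subset_closure ⟨_, hw, (word_one goodD4 ..).2 rfl⟩⟩, ?_⟩
  rw [rho, MonoidHom.comp_apply, ← root_eq (.inl rfl) (.inr rfl) h9, ← nat8_X (by norm_num : (9:ℕ) < 24)]
  rfl

theorem exists_letter (ω : K) (l : ℕ) : ∃ g : ↥(twistedD4 K 2), rho 2 g = matL ω l := by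
  unfold matL
  split_ifs
  · exact exists_B
  · exact exists_B'
  · exact exists_P _
  · exact exists_N _

theorem exists_word (ω : K) : ∀ f w : ℕ, ∃ g : ↥(twistedD4 K 2), rho 2 g = matF ω f w
  | 0, w => ⟨1, map_one _⟩
  | f + 1, w => by
    simp only [matF]
    split_ifs
    · exact ⟨1, map_one _⟩
    · obtain ⟨a, ha⟩ := exists_word ω f (w / 32)
      obtain ⟨b, hb⟩ := exists_letter ω (w % 32)
      exact ⟨a * b, by rw [map_mul, ha, hb]⟩

/-- The element of a word. -/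
noncomputable def el (ω : K) (w : ℕ) : ↥(twistedD4 K 2) := (exists_word ω 64 w).choose

theorem rho_el (ω : K) (w : ℕ) : rho 2 (el ω w) = matW ω w := (exists_word ω 64 w).choose_spec

variable {ω : K}

theorem rho_el_toM (hω : ω ^ 3 = ω + 1) (w : ℕ) : rho 2 (el ω w) = toM ω (app w one) := by
  rw [rho_el, toM_app hω, toM_one, mul_one]

theorem matR_el (hω : ω ^ 3 = ω + 1) (w : ℕ) : matR ω w = rho 2 (el ω w)⁻¹ := by
  have h1 : rho 2 (el ω w)⁻¹ * rho 2 (el ω w) = 1 := by rw [← map_mul, inv_mul_cancel, map_one]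
  calc matR ω w = (rho 2 (el ω w)⁻¹ * rho 2 (el ω w)) * matR ω w := by rw [h1, one_mul]
    _ = rho 2 (el ω w)⁻¹ * (matW ω w * matR ω w) := by rw [rho_el, mul_assoc]
    _ = rho 2 (el ω w)⁻¹ := by rw [matW_matR hω, mul_one]

variable [Fintype K] (hK : Fintype.card K = 8)

include hK in
theorem phi_surj (hω : ω ^ 3 = ω + 1) (t : K) : ∃ n < 8, phi ω n = t := by
  classical
  have hinj : Function.Injective fun n : Fin 8 => phi ω n.val :=
    fun a b h => Fin.ext (phi_inj hω a.2 b.2 h)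
  obtain ⟨n, hn⟩ := ((Fintype.bijective_iff_injective_and_card _).2 ⟨hinj, by rw [Fintype.card_fin, hK]⟩).2 t
  exact ⟨n.val, n.2, hn⟩

theorem checkL (i : ℕ) (hi : i < 42) : chkL i = true := allFrom_spec chkL_all i (Nat.zero_le _) (by omega)

theorem checkR (i : ℕ) (hi : i < 2457) : chkR i = true := by
  rcases (show i < 512 ∨ 512 ≤ i ∧ i < 1024 ∨ 1024 ≤ i ∧ i < 1536 ∨ 1536 ≤ i ∧ i < 2048 ∨ 2048 ≤ i by omega)
    with h | h | h | h | h
  · exact allFrom_spec chkR_part0 i (Nat.zero_le _) (by omega)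
  · exact allFrom_spec chkR_part1 i h.1 (by omega)
  · exact allFrom_spec chkR_part2 i h.1 (by omega)
  · exact allFrom_spec chkR_part3 i h.1 (by omega)
  · exact allFrom_spec chkR_part4 i h (by omega)

/-- The elements of the Levi complement. -/
noncomputable def lev (ω : K) (i : ℕ) : ↥(twistedD4 K 2) := el ω (dLWord.get i)

theorem rho_lev (hω : ω ^ 3 = ω + 1) (i : ℕ) (hi : i < 42) : rho 2 (lev ω i) = toM ω (dLMat.get i) := by
  have h := checkL i hi
  simp only [chkL, Bool.and_eq_true, Nat.beq_eq] at h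
  rw [lev, rho_el_toM hω, h.1.1.1.1.1.1]

theorem lev_blocks (hω : ω ^ 3 = ω + 1) (i : ℕ) (hi : i < 42) :
    Up blk (rho 2 (lev ω i)) ∧ Dg blk (rho 2 (lev ω i)) = rho 2 (lev ω i) ∧ Up blkR (rho 2 (lev ω i)) := by
  have h := checkL i hi
  simp only [chkL, Bool.and_eq_true] at h
  obtain ⟨⟨⟨⟨⟨⟨-, hu⟩, hl⟩, -⟩, -⟩, -⟩, -⟩ := h
  rw [rho_lev hω i hi]
  exact ⟨(upWith_spec ω hu).1, (upWith_spec ω hu).2, (lowWith_spec ω hl).1⟩

theorem lev_letters (hω : ω ^ 3 = ω + 1) (i : ℕ) (hi : i < 42) :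
    (∃ j < 42, matL ω 16 * toM ω (dLMat.get i) = toM ω (dLMat.get j)) ∧
    (∃ j < 42, matL ω 17 * toM ω (dLMat.get i) = toM ω (dLMat.get j)) ∧
    (∃ j < 42, matW ω hW * toM ω (dLMat.get i) = toM ω (dLMat.get j)) := by
  have h := checkL i hi
  simp only [chkL, Bool.and_eq_true, Nat.beq_eq] at h
  obtain ⟨⟨⟨⟨-, h16⟩, h17⟩, hh⟩, -⟩ := h
  have hb : ∀ i : Fin 42, dLClose.get i % 64 < 42 ∧ dLClose.get i / 64 % 64 < 42 ∧ dLClose.get i / 4096 < 42 := by
    decide +kernel
  obtain ⟨b1, b2, b3⟩ := hb ⟨i, hi⟩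
  have one_letter : ∀ l : ℕ, l < 32 → l ≠ 0 → matW ω l = matL ω l := fun l hl hl0 => by
    simp [matW, matF, Nat.div_eq_of_lt hl, Nat.mod_eq_of_lt hl, hl0]
  refine ⟨⟨_, b1, ?_⟩, ⟨_, b2, ?_⟩, ⟨_, b3, ?_⟩⟩
  · rw [← h16, toM_app hω, one_letter 16 (by norm_num) (by norm_num)]
  · rw [← h17, toM_app hω, one_letter 17 (by norm_num) (by norm_num)]
  · rw [← hh, toM_app hω]

/-- Membership in the parabolic subgroup. -/
def InPar (ω : K) (g : ↥(twistedD4 K 2)) : Prop :=
  Up blk (rho 2 g) ∧ ∃ i < 42, Dg blk (rho 2 g) = toM ω (dLMat.get i)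

theorem matF_stable (ω : K) : ∀ f f' w : ℕ, w < 32 ^ f → f ≤ f' → matF ω f' w = matF ω f w
  | 0, f', w, h, _ => by
    obtain rfl : w = 0 := by simpa using h
    cases f' <;> simp [matF]
  | f + 1, 0, w, _, h => by omega
  | f + 1, f' + 1, w, h, hf => by
    simp only [matF]
    by_cases h0 : w = 0
    · simp [h0]
    · rw [if_neg h0, if_neg h0, matF_stable ω f f' (w / 32) (by rw [pow_succ] at h; omega) (by omega)]

/-- Peel four letters. -/
theorem matF_hW (hω : ω ^ 3 = ω + 1) (f w : ℕ) (h : w % 32 ^ 4 = hW) :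
    matF ω (f + 4) w = matF ω f (w / 32 ^ 4) * matW ω hW := by
  have h0 : ∀ k < 4, w / 32 ^ k ≠ 0 := by
    intro k hk e
    have : w < 32 ^ k := by
      rcases Nat.div_eq_zero_iff.1 e with e | e
      · exact absurd e (by positivity)
      · exact e
    have hpow : (32 : ℕ) ^ k ≤ 32 ^ 3 := Nat.pow_le_pow_right (by norm_num) (by omega)
    have : hW ≤ w := h ▸ Nat.mod_le _ _
    have : (32 : ℕ) ^ 3 < hW := by decide
    omega
  have a1 := h0 1 (by norm_num); have a2 := h0 2 (by norm_num); have a3 := h0 3 (by norm_num); have a0 := h0 0 (by norm_num)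
  simp only [pow_zero, pow_one, Nat.div_one] at a0 a1
  norm_num at a2 a3
  have e : matW ω hW = matL ω 14 * matL ω 6 * matL ω 10 * matL ω 1 := by
    simp [matW, matF, hW, mul_assoc]
  have d : hW = 14 * 32 ^ 3 + 6 * 32 ^ 2 + 10 * 32 + 1 := rfl
  rw [d] at h
  norm_num at h
  have m1 : w % 32 = 1 := by omega
  have m2 : w / 32 % 32 = 10 := by omega
  have m3 : w / 32 / 32 % 32 = 6 := by omega
  have m4 : w / 32 / 32 / 32 % 32 = 14 := by omega
  have d4 : w / 32 / 32 / 32 / 32 = w / 32 ^ 4 := by norm_num; omega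
  simp only [matF, a0, a1, if_false, m1, m2, m3, m4, d4, show w / 32 / 32 ≠ 0 by omega,
    show w / 32 / 32 / 32 ≠ 0 by omega, e, mul_assoc]

theorem InPar.one (hω : ω ^ 3 = ω + 1) : InPar ω (1 : ↥(twistedD4 K 2)) := by
  refine ⟨by rw [map_one]; exact Up.one _, 0, by norm_num, ?_⟩
  rw [map_one, Dg_one, chk_zero.2.2.2.1, toM_one]

theorem levF_mul (hω : ω ^ 3 = ω + 1) : ∀ f f' w, levF f w = true → 4 * f ≤ f' → ∀ j < 42,
    ∃ k < 42, matF ω f' w * toM ω (dLMat.get j) = toM ω (dLMat.get k)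
  | 0, f', w, h, _, j, hj => by
    obtain rfl : w = 0 := Nat.eq_of_beq_eq_true h
    exact ⟨j, hj, by cases f' <;> simp [matF]⟩
  | f + 1, f', w, h, hf, j, hj => by
    rw [levF] at h
    by_cases h0 : w = 0
    · subst h0; exact ⟨j, hj, by cases f' <;> simp [matF]⟩
    rw [beq_ne h0, cond_false] at h
    by_cases hl : (Nat.beq (w % 32) 16 || Nat.beq (w % 32) 17) = true
    · rw [hl, cond_true] at h
      obtain ⟨f'', rfl⟩ : ∃ f'', f' = f'' + 1 := ⟨f' - 1, by omega⟩
      simp only [matF, if_neg h0]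
      obtain ⟨j16, j17, -⟩ := lev_letters hω j hj
      simp only [Bool.or_eq_true, Nat.beq_eq] at hl
      obtain ⟨m, hm, em⟩ : ∃ m < 42, matL ω (w % 32) * toM ω (dLMat.get j) = toM ω (dLMat.get m) := by
        rcases hl with e | e <;> rw [e] <;> assumption
      obtain ⟨k, hk, ek⟩ := levF_mul hω f f'' (w / 32) h (by omega) m hm
      exact ⟨k, hk, by rw [mul_assoc, em, ek]⟩
    · rw [Bool.not_eq_true] at hl
      rw [hl, cond_false] at h
      simp only [Bool.and_eq_true, Nat.beq_eq] at h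
      obtain ⟨f'', rfl⟩ : ∃ f'', f' = f'' + 4 := ⟨f' - 4, by omega⟩
      rw [matF_hW hω f'' w h.1, mul_assoc]
      obtain ⟨-, -, m, hm, em⟩ := lev_letters hω j hj
      rw [em]
      exact levF_mul hω f f'' _ h.2 (by omega) m hm

theorem matF_fuel_lev (ω : K) (i : ℕ) (hi : i < 42) : matF ω 160 (dLWord.get i) = matW ω (dLWord.get i) := by
  have hb : ∀ i : Fin 42, dLWord.get i < 32 ^ 64 := by decide +kernel
  exact matF_stable ω 64 160 _ (hb ⟨i, hi⟩) (by norm_num)

theorem lev_mul (hω : ω ^ 3 = ω + 1) (i j : ℕ) (hi : i < 42) (hj : j < 42) :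
    ∃ k < 42, toM ω (dLMat.get i) * toM ω (dLMat.get j) = toM ω (dLMat.get k) := by
  obtain ⟨k, hk, e⟩ := levF_mul hω 40 160 _ (allFrom_spec chk_levWords i (Nat.zero_le _) (by omega)) le_rfl j hj
  refine ⟨k, hk, ?_⟩
  rw [← e, matF_fuel_lev ω i hi, ← rho_el, ← lev, rho_lev hω i hi]

theorem InPar.mul (hω : ω ^ 3 = ω + 1) {g h : ↥(twistedD4 K 2)} (hg : InPar ω g) (hh : InPar ω h) : InPar ω (g * h) := by
  obtain ⟨u1, i, hi, d1⟩ := hg
  obtain ⟨u2, j, hj, d2⟩ := hh
  obtain ⟨k, hk, e⟩ := lev_mul hω i j hi hj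
  exact ⟨by rw [map_mul]; exact u1.mul u2, k, hk, by rw [map_mul, Dg_mul u1 u2, d1, d2, e]⟩

/-- The parabolic subgroup. -/
noncomputable def par (hω : ω ^ 3 = ω + 1) : Subgroup ↥(twistedD4 K 2) where
  carrier := {g | InPar ω g}
  one_mem' := InPar.one hω
  mul_mem' := InPar.mul hω
  inv_mem' := by
    intro g hg
    have hn : 0 < orderOf g := (isOfFinOrder_of_finite g).orderOf_pos
    have hpow : ∀ n, InPar ω (g ^ n) := fun n => by
      induction n with
      | zero => exact InPar.one hω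
      | succ n ih => rw [pow_succ]; exact InPar.mul hω ih hg
    have : g⁻¹ = g ^ (orderOf g - 1) := by
      rw [inv_eq_iff_mul_eq_one, ← pow_succ', Nat.sub_add_cancel hn, pow_orderOf_eq_one]
    exact this ▸ hpow _

theorem mem_par (hω : ω ^ 3 = ω + 1) (g : ↥(twistedD4 K 2)) : g ∈ par hω ↔ InPar ω g := Iff.rfl

variable {hω : ω ^ 3 = ω + 1}

include hK

theorem el_eq (hω : ω ^ 3 = ω + 1) {w : ℕ} {g : ↥(twistedD4 K 2)} (h : rho 2 g = toM ω (app w one)) : g = el ω w :=
  rho_injective hK (h.trans (rho_el_toM hω w).symm)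

theorem parF_mem (hω : ω ^ 3 = ω + 1) : ∀ f f' w, parF f w = true → 4 * f ≤ f' → ∀ g : ↥(twistedD4 K 2),
    rho 2 g = matF ω f' w → g ∈ par hω
  | 0, f', w, h, _, g, hg => by
    obtain rfl : w = 0 := Nat.eq_of_beq_eq_true h
    have : g = 1 := rho_injective hK (by rw [hg, map_one]; cases f' <;> simp [matF])
    exact this ▸ one_mem _
  | f + 1, f', w, h, hf, g, hg => by
    rw [parF] at h
    by_cases h0 : w = 0
    · subst h0
      have : g = 1 := rho_injective hK (by rw [hg, map_one]; cases f' <;> simp [matF])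
      exact this ▸ one_mem _
    rw [beq_ne h0, cond_false] at h
    by_cases hl : (Nat.beq (w % 32) 16 || Nat.beq (w % 32) 17 || (Nat.blt 0 (w % 32) && Nat.blt (w % 32) 8)) = true
    · rw [hl, cond_true] at h
      obtain ⟨f'', rfl⟩ : ∃ f'', f' = f'' + 1 := ⟨f' - 1, by omega⟩
      simp only [matF, if_neg h0] at hg
      obtain ⟨a, ha⟩ := exists_word ω f'' (w / 32)
      obtain ⟨b, hb⟩ := exists_letter ω (w % 32)
      have e : g = a * b := rho_injective hK (by rw [hg, map_mul, ha, hb])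
      rw [e]
      refine mul_mem (parF_mem hω f f'' _ h (by omega) a ha) ?_
      simp only [Bool.or_eq_true, Bool.and_eq_true, Nat.beq_eq] at hl
      obtain ⟨hc16, hc17, -⟩ := lev_letters hω 0 (by norm_num)
      rw [chk_zero.2.2.2.1, toM_one, mul_one] at hc16 hc17
      rcases hl with (e' | e') | e'
      · obtain ⟨j, hj, ej⟩ := hc16
        rw [e', ej, ← rho_lev hω j hj] at hb
        exact ⟨hb ▸ (lev_blocks hω j hj).1, j, hj, by rw [hb, (lev_blocks hω j hj).2.1, rho_lev hω j hj]⟩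
      · obtain ⟨j, hj, ej⟩ := hc17
        rw [e', ej, ← rho_lev hω j hj] at hb
        exact ⟨hb ▸ (lev_blocks hω j hj).1, j, hj, by rw [hb, (lev_blocks hω j hj).2.1, rho_lev hω j hj]⟩
      · have hlt : w % 32 < 8 := by simpa [Nat.blt, Nat.ble_eq] using e'.2
        have hu := upWith_spec ω (allFrom_spec chk_parLetters (w % 32) (Nat.zero_le _) (by omega))
        have hne : w % 32 ≠ 0 := by intro h; simp [h, Nat.blt] at e'
        have em : toM ω (app (w % 32) one) = matL ω (w % 32) := by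
          rw [toM_app hω, toM_one, mul_one]
          simp [matW, matF, Nat.div_eq_of_lt (show w % 32 < 32 by omega), hne]
        rw [← hb] at em
        rw [em] at hu
        exact ⟨hu.1, 0, by norm_num, by rw [hu.2, chk_zero.2.2.2.1]⟩
    · rw [Bool.not_eq_true] at hl
      rw [hl, cond_false] at h
      simp only [Bool.and_eq_true, Nat.beq_eq] at h
      obtain ⟨f'', rfl⟩ : ∃ f'', f' = f'' + 4 := ⟨f' - 4, by omega⟩
      rw [matF_hW hω f'' w h.1] at hg
      obtain ⟨a, ha⟩ := exists_word ω f'' (w / 32 ^ 4)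
      have e : g = a * el ω hW := rho_injective hK (by rw [hg, map_mul, ha, rho_el])
      rw [e]
      refine mul_mem (parF_mem hω f f'' _ h.2 (by omega) a ha) ?_
      obtain ⟨-, -, j, hj, ej⟩ := lev_letters hω 0 (by norm_num)
      rw [chk_zero.2.2.2.1, toM_one, mul_one, ← rho_el, ← rho_lev hω j hj] at ej
      exact ⟨ej ▸ (lev_blocks hω j hj).1, j, hj, by rw [ej, (lev_blocks hω j hj).2.1, rho_lev hω j hj]⟩

theorem parF_el (hω : ω ^ 3 = ω + 1) {w : ℕ} (h : parF 40 w = true) (hw : w < 32 ^ 64) : el ω w ∈ par hω :=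
  parF_mem hK hω 40 160 w h le_rfl _ (by rw [rho_el, matW, matF_stable ω 64 160 w hw (by norm_num)])

/-- A coset representative. -/
noncomputable def rep (ω : K) (i : ℕ) : ↥(twistedD4 K 2) := el ω (rU i) * el ω (nW (rK i))

omit hK in
theorem rep_lits (hω : ω ^ 3 = ω + 1) (i : ℕ) (hi : i < 2457) : rho 2 (rep ω i) = toM ω (dRMat.get i) := by
  have h := checkR i hi
  simp only [chkR, Bool.and_eq_true, Nat.beq_eq] at h
  rw [rep, map_mul, rho_el, rho_el, ← h.1.1.1.1.2, toM_app hω, toM_app hω, toM_one, mul_one]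

omit hK in
theorem rep_facts (i : ℕ) (hi : i < 2457) : rK i < 4 ∧ parF 40 (rU i) = true ∧ rU i < 32 ^ 64 := by
  have h := checkR i hi
  simp only [chkR, Bool.and_eq_true] at h
  have hb : allFrom (fun i => Nat.blt (rU i) (32 ^ 64)) 0 2457 = true := by decide +kernel
  refine ⟨by simpa [Nat.blt, Nat.ble_eq] using h.1.1.1.1.1.1, h.1.1.1.1.1.2, ?_⟩
  simpa [Nat.blt, Nat.ble_eq] using allFrom_spec hb i (Nat.zero_le _) (by omega)

theorem step (hω : ω ^ 3 = ω + 1) (i s : ℕ) (hi : i < 2457) (hs : s < 4) :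
    ∃ j < 2457, ∃ p ∈ par hω, el ω (gW s) * rep ω i = rep ω j * p := by
  have h := checkR i hi
  simp only [chkR, Bool.and_eq_true] at h
  have hst : chkStep i s = true := by
    obtain rfl | rfl | rfl | rfl : s = 0 ∨ s = 1 ∨ s = 2 ∨ s = 3 := by omega
    exacts [h.1.1.1.2, h.1.1.2, h.1.2, h.2]
  simp only [chkStep, Bool.and_eq_true] at hst
  obtain ⟨⟨hj, hl⟩, hu⟩ := hst
  set j := dRClose.get i / 2 ^ (18 * s) % 4096
  have hj' : j < 2457 := by simpa [Nat.blt, Nat.ble_eq] using hj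
  have hl' : dRClose.get i / 2 ^ (18 * s) / 4096 % 64 < 42 := by simpa [Nat.blt, Nat.ble_eq] using hl
  refine ⟨j, hj', (rep ω j)⁻¹ * (el ω (gW s) * rep ω i), ?_, by group⟩
  obtain ⟨h1, h2⟩ := upWith_spec ω hu
  have e : rho 2 ((rep ω j)⁻¹ * (el ω (gW s) * rep ω i)) =
      toM ω (appR (nW (rK j)) (appR (rU j) (app (gW s) (dRMat.get i)))) := by
    rw [toM_appR hω, toM_appR hω, toM_app hω, matR_el hω, matR_el hω, ← rho_el, ← rep_lits hω i hi, map_mul, map_mul]
    rw [show (rep ω j)⁻¹ = (el ω (nW (rK j)))⁻¹ * (el ω (rU j))⁻¹ by rw [rep, mul_inv_rev]]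
    simp [map_mul, mul_assoc]
  exact ⟨e ▸ h1, _, hl', e ▸ h2⟩

omit hK in
theorem matF_gen (hω : ω ^ 3 = ω + 1) {S : Subgroup ↥(twistedD4 K 2)} (hS : ∀ l ∈ [2, 9, 16, 17], ∀ g, rho 2 g = matL ω l → g ∈ S)
    (hinj : Function.Injective (rho (K := K) 2)) :
    ∀ f f' w, genF f w = true → f ≤ f' → ∀ g : ↥(twistedD4 K 2), rho 2 g = matF ω f' w → g ∈ S
  | 0, f', w, h, _, g, hg => by
    obtain rfl : w = 0 := Nat.eq_of_beq_eq_true h
    have : g = 1 := hinj (by rw [hg, map_one]; cases f' <;> simp [matF])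
    exact this ▸ one_mem _
  | f + 1, f', w, h, hf, g, hg => by
    rw [genF] at h
    by_cases h0 : w = 0
    · subst h0
      have : g = 1 := hinj (by rw [hg, map_one]; cases f' <;> simp [matF])
      exact this ▸ one_mem _
    rw [beq_ne h0, cond_false] at h
    simp only [Bool.and_eq_true, Bool.or_eq_true, Nat.beq_eq] at h
    obtain ⟨f'', rfl⟩ : ∃ f'', f' = f'' + 1 := ⟨f' - 1, by omega⟩
    simp only [matF, if_neg h0] at hg
    obtain ⟨a, ha⟩ := exists_word ω f'' (w / 32)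
    obtain ⟨b, hb⟩ := exists_letter ω (w % 32)
    have e : g = a * b := hinj (by rw [hg, map_mul, ha, hb])
    rw [e]
    refine mul_mem (matF_gen hω hS hinj f f'' _ h.2 (by omega) a ha) (hS _ ?_ b hb)
    rcases h.1 with ((e | e) | e) | e <;> simp [e]

theorem closure_gens (hω : ω ^ 3 = ω + 1) :
    Subgroup.closure (Set.range fun s : Fin 4 => el ω (gW s.val)) = ⊤ := by
  set S := Subgroup.closure (Set.range fun s : Fin 4 => el ω (gW s.val))
  have hgen : ∀ l ∈ [2, 9, 16, 17], ∀ g, rho 2 g = matL ω l → g ∈ S := by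
    intro l hl g hg
    obtain ⟨s, hs⟩ : ∃ s : Fin 4, gW s.val = l := by
      simp only [List.mem_cons, List.not_mem_nil, or_false] at hl
      rcases hl with rfl | rfl | rfl | rfl
      exacts [⟨0, rfl⟩, ⟨1, rfl⟩, ⟨2, rfl⟩, ⟨3, rfl⟩]
    have : g = el ω (gW s.val) := rho_injective hK (by
      rw [hg, rho_el, hs]
      simp only [List.mem_cons, List.not_mem_nil, or_false] at hl
      rcases hl with rfl | rfl | rfl | rfl <;> simp [matW, matF])
    exact this ▸ Subgroup.subset_closure ⟨s, rfl⟩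
  have hlet : ∀ l < 18, ∀ g, rho 2 g = matL ω l → g ∈ S := by
    intro l hl g hg
    have h := allFrom_spec chk_sword l (Nat.zero_le _) (by omega)
    simp only [Bool.and_eq_true, Nat.beq_eq] at h
    have : g = el ω (sword l) := rho_injective hK (by
      rw [hg, rho_el_toM hω, h.2, toM_letter hω, toM_one, mul_one])
    rw [this]
    have hb : ∀ l : Fin 18, sword l.val < 32 ^ 64 := by decide +kernel
    exact matF_gen hω hgen (rho_injective hK) 40 160 (sword l) h.1 (by norm_num) _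
      (by rw [rho_el, matW, matF_stable ω 64 160 _ (hb ⟨l, hl⟩) (by norm_num)])
  rw [eq_top_iff]
  rintro ⟨x, hx⟩ -
  suffices H : ∀ y (hy : y ∈ twistedD4 K 2), (⟨y, hy⟩ : ↥(twistedD4 K 2)) ∈ S from H x hx
  intro y hy
  induction hy using Subgroup.closure_induction with
  | mem z hz =>
    obtain ⟨w, hw, hg⟩ := hz
    have hz' : z ∈ twistedD4 K 2 := Subgroup.subset_closure ⟨w, hw, hg⟩
    change (⟨z, hz'⟩ : ↥(twistedD4 K 2)) ∈ S
    rcases rho_gen hK (g := (⟨z, hz'⟩ : ↥(twistedD4 K 2))) hw hg with ⟨t, ht, e | e⟩ | ⟨t, e | e⟩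
    · have : t = 0 ∨ t = 1 := by
        rcases eq_or_ne t 0 with h | h
        · exact Or.inl h
        · exact Or.inr (mul_left_cancel₀ h (by rw [mul_one, ← pow_two, ht]))
      rcases this with rfl | rfl
      · have : (⟨z, hz'⟩ : ↥(twistedD4 K 2)) = 1 := rho_injective hK (by rw [e, map_one]; simp [two])
        exact this ▸ one_mem _
      · exact hlet 16 (by norm_num) _ (by rw [e]; simp [matL])
    · have : t = 0 ∨ t = 1 := by
        rcases eq_or_ne t 0 with h | h
        · exact Or.inl h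
        · exact Or.inr (mul_left_cancel₀ h (by rw [mul_one, ← pow_two, ht]))
      rcases this with rfl | rfl
      · have : (⟨z, hz'⟩ : ↥(twistedD4 K 2)) = 1 := rho_injective hK (by rw [e, map_one]; simp [two])
        exact this ▸ one_mem _
      · exact hlet 17 (by norm_num) _ (by rw [e]; simp [matL])
    · obtain ⟨n, hn, rfl⟩ := phi_surj hK hω t
      exact hlet n (by omega) _ (by rw [e]; simp [matL, show n ≠ 16 by omega, show n ≠ 17 by omega, hn])
    · obtain ⟨n, hn, rfl⟩ := phi_surj hK hω t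
      exact hlet (8 + n) (by omega) _ (by
        rw [e]; simp [matL, show 8 + n ≠ 16 by omega, show 8 + n ≠ 17 by omega, show ¬ 8 + n < 8 by omega,
          Nat.mod_eq_of_lt hn])
  | one => exact one_mem S
  | mul a b ha hb iha ihb => exact mul_mem iha ihb
  | inv a ha iha => exact inv_mem iha

theorem decomposition (hω : ω ^ 3 = ω + 1) (g : ↥(twistedD4 K 2)) :
    ∃ i < 2457, ∃ p ∈ par hω, g = rep ω i * p := by
  have h0 : rep ω 0 = 1 := rho_injective hK (by
    rw [rep_lits hω 0 (by norm_num), chk_zero.2.2.1, toM_one, map_one])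
  have hg : g ∈ Subgroup.closure (Set.range fun s : Fin 4 => el ω (gW s.val)) := by
    rw [closure_gens hK hω]; trivial
  rw [← Subgroup.mem_toSubmonoid, Subgroup.closure_toSubmonoid_of_finite] at hg
  induction hg using Submonoid.closure_induction_left with
  | one => exact ⟨0, by norm_num, 1, one_mem _, by rw [h0, one_mul]⟩
  | mul_left x hx y hy ih =>
    obtain ⟨i, hi, p, hp, rfl⟩ := ih
    obtain ⟨s, rfl⟩ := hx
    obtain ⟨j, hj, q, hq, e⟩ := step hK hω i s.val hi s.2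
    exact ⟨j, hj, q * p, mul_mem hq hp, by rw [← mul_assoc, e, mul_assoc]⟩

end Cfsg.Agent.H71.D4Two
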