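import Cfsg.Agent.H71.D4Two.Checks
import Cfsg.Agent.H71.D4Two.RMat
import Cfsg.Agent.H71.D4Two.RWord
import Cfsg.Agent.H71.D4Two.RClose

/-! Checks for the coset representatives. -/

set_option autoImplicit false

namespace Cfsg.Agent.H71.D4Two

/-- The four generators. -/
def gW : ℕ → ℕ
  | 0 => 2
  | 1 => 9
  | 2 => 16
  | _ => 17

/-- All letters of the word lie in the parabolic subgroup. -/
def parF : ℕ → ℕ → Bool
  | 0, w => Nat.beq w 0
  | f + 1, w => bif Nat.beq w 0 then true else
      (bif Nat.beq (w % 32) 16 || Nat.beq (w % 32) 17 || (Nat.blt 0 (w % 32) && Nat.blt (w % 32) 8) then parF f (w / 32)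
       else Nat.beq (w % (32 ^ 4)) hW && parF f (w / 32 ^ 4))

/-- The word of a representative. -/
def rU (i : ℕ) : ℕ := dRWord.get i / 8

/-- Its double coset. -/
def rK (i : ℕ) : ℕ := dRWord.get i % 8

/-- Check one generator at one representative. -/
def chkStep (i s : ℕ) : Bool :=
  let c := dRClose.get i / 2 ^ (18 * s)
  let j := c % 4096
  Nat.blt j 2457 && Nat.blt (c / 4096 % 64) 42 &&
    upWith (dLMat.get (c / 4096 % 64))
      (appR (nW (rK j)) (appR (rU j) (app (gW s) (dRMat.get i))))

/-- Check one representative. -/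
def chkR (i : ℕ) : Bool :=
  Nat.blt (rK i) 4 && parF 40 (rU i) && Nat.beq (app (rU i) (app (nW (rK i)) one)) (dRMat.get i) &&
    chkStep i 0 && chkStep i 1 && chkStep i 2 && chkStep i 3

end Cfsg.Agent.H71.D4Two
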