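import Cfsg.Agent.H23.D4Spec.Elems
import Cfsg.Agent.H71.D4Two.Eval

/-!
# Soundness of the packed evaluation
-/

set_option autoImplicit false
set_option maxRecDepth 100000

namespace Cfsg.Agent.H71.D4Two

open Cfsg.Agent.H23.D4Spec

/-! ## Bits -/

/-- Entry of a row. -/
def ent (r j : ℕ) : ℕ := (r >>> (3 * j)) &&& 7

/-- Entry of a matrix. -/
def getE (st i j : ℕ) : ℕ := (st >>> (24 * i + 3 * j)) &&& 7

theorem testBit_seven (k : ℕ) : Nat.testBit 7 k = decide (k < 3) := Nat.testBit_two_pow_sub_one 3 k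

theorem testBit_getE (st i j k : ℕ) :
    (getE st i j).testBit k = (st.testBit (24 * i + 3 * j + k) && decide (k < 3)) := by
  simp [getE, testBit_seven]

theorem testBit_ent (r j k : ℕ) : (ent r j).testBit k = (r.testBit (3 * j + k) && decide (k < 3)) := by
  simp [ent, testBit_seven]

theorem getE_xor (a b i j : ℕ) : getE (a ^^^ b) i j = getE a i j ^^^ getE b i j :=
  Nat.eq_of_testBit_eq fun k => by
    simp only [testBit_getE, Nat.testBit_xor]
    cases decide (k < 3) <;> simp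

theorem getE_and (a b i j : ℕ) : getE (a &&& b) i j = getE a i j &&& getE b i j :=
  Nat.eq_of_testBit_eq fun k => by
    simp only [testBit_getE, Nat.testBit_and]
    cases decide (k < 3) <;> simp

theorem ent_xor (a b j : ℕ) : ent (a ^^^ b) j = ent a j ^^^ ent b j :=
  Nat.eq_of_testBit_eq fun k => by
    simp only [testBit_ent, Nat.testBit_xor]
    cases decide (k < 3) <;> simp

theorem getE_lt (st i j : ℕ) : getE st i j < 8 := lt_of_le_of_lt Nat.and_le_right (by norm_num)

theorem mulE_lt (a b : ℕ) : mulE a b < 8 := lt_of_le_of_lt Nat.and_le_right (by norm_num)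

theorem ent_row (b st j : ℕ) (hj : j < 8) : ent (row b st) j = getE st b j :=
  Nat.eq_of_testBit_eq fun k => by
    simp only [testBit_ent, testBit_getE, row, Nat.testBit_and, Nat.testBit_shiftRight,
      show (0xffffff : ℕ) = 2 ^ 24 - 1 by norm_num, Nat.testBit_two_pow_sub_one]
    by_cases hk : k < 3
    · simp [hk, show 3 * j + k < 24 by omega, Nat.add_assoc]
    · simp [hk]

theorem getE_shift {x : ℕ} (hx : x < 2 ^ 24) (a i j : ℕ) (hj : j < 8) :
    getE (x <<< (24 * a)) i j = if i = a then ent x j else 0 :=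
  Nat.eq_of_testBit_eq fun k => by
    simp only [testBit_getE, Nat.testBit_shiftLeft]
    by_cases hk : k < 3
    · rcases lt_trichotomy i a with h | h | h
      · rw [if_neg h.ne, Nat.zero_testBit]
        simp [hk, show ¬ 24 * a ≤ 24 * i + 3 * j + k by omega]
      · subst h
        rw [if_pos rfl, testBit_ent]
        simp [hk, show 24 * i ≤ 24 * i + 3 * j + k by omega,
          show 24 * i + 3 * j + k - 24 * i = 3 * j + k by omega]
      · rw [if_neg h.ne', Nat.zero_testBit]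
        have : x.testBit (24 * i + 3 * j + k - 24 * a) = false :=
          Nat.testBit_lt_two_pow (hx.trans_le (Nat.pow_le_pow_right (by norm_num) (by omega)))
        simp [this]
    · split_ifs <;> simp [hk, testBit_ent]

/-- Isolated bits. -/
def maskN : ℕ → ℕ
  | 0 => 0
  | n + 1 => 1 + 8 * maskN n

theorem ent_mask_mul (c : ℕ) (hc : c < 8) :
    ∀ (n j r : ℕ), j < n → ent ((r &&& maskN n) * c) j = if r.testBit (3 * j) then c else 0
  | 0, j, r, h => by omega
  | n + 1, j, r, h => by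
    have hm : maskN (n + 1) / 2 ^ 3 = maskN n := by simp only [maskN]; norm_num; omega
    have hm' : maskN (n + 1) % 2 ^ 3 = 1 := by simp only [maskN]; norm_num
    have hdiv : (r &&& maskN (n + 1)) / 2 ^ 3 = (r / 2 ^ 3) &&& maskN n := by
      rw [Nat.and_div_two_pow, hm]
    have hmod : (r &&& maskN (n + 1)) % 2 ^ 3 = r % 2 := by
      rw [Nat.and_mod_two_pow, hm', Nat.and_one_is_mod, Nat.mod_mod_of_dvd _ (by norm_num : 2 ∣ 2 ^ 3)]
    have hsplit : (r &&& maskN (n + 1)) * c = r % 2 * c + 8 * (((r / 2 ^ 3) &&& maskN n) * c) := by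
      conv_lhs => rw [← Nat.div_add_mod (r &&& maskN (n + 1)) (2 ^ 3), hdiv, hmod]
      ring
    have hsmall : r % 2 * c < 8 := by
      have := Nat.mod_lt r (by norm_num : 2 > 0)
      have : r % 2 * c ≤ 1 * c := Nat.mul_le_mul_right c (by omega)
      omega
    rcases j with - | j
    · have hb : r.testBit 0 = decide (r % 2 = 1) := Nat.testBit_zero r
      rw [ent, show (7 : ℕ) = 2 ^ 3 - 1 from rfl, Nat.and_two_pow_sub_one_eq_mod, Nat.mul_zero,
        Nat.shiftRight_zero, hsplit, hb]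
      rcases Nat.mod_two_eq_zero_or_one r with h0 | h0 <;> simp [h0] <;> omega
    · have e : ent ((r &&& maskN (n + 1)) * c) (j + 1) = ent (((r / 2 ^ 3) &&& maskN n) * c) j := by
        rw [ent, ent, show 3 * (j + 1) = 3 + 3 * j by omega, Nat.shiftRight_add, hsplit]
        congr 2
        rw [Nat.shiftRight_eq_div_pow]; omega
      rw [e, ent_mask_mul c hc n j _ (by omega), show (3 * (j + 1)) = 3 + 3 * j by omega,
        ← Nat.shiftRight_eq_div_pow, Nat.testBit_shiftRight]

theorem mulRow_lt (c r : ℕ) (hc : c < 8) : mulRow c r < 2 ^ 24 := by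
  have hb : ∀ s d : ℕ, d < 8 → (s &&& mask) * d < 2 ^ 24 := fun s d hd => by
    have h1 : s &&& mask ≤ 0o11111111 := Nat.and_le_right
    calc (s &&& mask) * d ≤ 0o11111111 * 7 := Nat.mul_le_mul h1 (by omega)
      _ < 2 ^ 24 := by norm_num
  exact Nat.xor_lt_two_pow (Nat.xor_lt_two_pow (hb r c hc) (hb _ _ (mulE_lt c 2))) (hb _ _ (mulE_lt c 4))

theorem mulE_bits : ∀ c < 8, ∀ x < 8,
    ((if Nat.testBit x 0 then c else 0) ^^^ (if Nat.testBit x 1 then mulE c 2 else 0)) ^^^
      (if Nat.testBit x 2 then mulE c 4 else 0) = mulE c x := by decide +kernel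

theorem ent_mulRow (c r j : ℕ) (hc : c < 8) (hj : j < 8) : ent (mulRow c r) j = mulE c (ent r j) := by
  have hm : mask = maskN 8 := by decide +kernel
  rw [mulRow, ent_xor, ent_xor, hm, ent_mask_mul c hc 8 j r hj, ent_mask_mul _ (mulE_lt c 2) 8 j _ hj,
    ent_mask_mul _ (mulE_lt c 4) 8 j _ hj, ← mulE_bits c hc (ent r j) (lt_of_le_of_lt Nat.and_le_right (by norm_num))]
  simp only [testBit_ent, Nat.testBit_shiftRight]
  simp [Nat.add_comm]

theorem getE_op2 (a b c d t st i j : ℕ) (ht : t < 8) (hj : j < 8) :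
    getE (op2 a b c d t st) i j = (getE st i j ^^^ (if i = a then mulE t (getE st b j) else 0)) ^^^
      (if i = c then mulE t (getE st d j) else 0) := by
  rw [op2, getE_xor, getE_xor, getE_shift (mulRow_lt t _ ht) _ _ _ hj, getE_shift (mulRow_lt t _ ht) _ _ _ hj,
    ent_mulRow _ _ _ ht hj, ent_mulRow _ _ _ ht hj, ent_row _ _ _ hj, ent_row _ _ _ hj]

/-! ## The field -/

variable {K : Type*} [Field K] [CharP K 2]

/-- A Boolean in the field. -/
def bK (b : Bool) : K := if b then 1 else 0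

theorem bK_xor (a b : Bool) : (bK (a ^^ b) : K) = bK a + bK b := by
  cases a <;> cases b <;> simp [bK, CharTwo.add_self_eq_zero]

theorem bK_and (a b : Bool) : (bK (a && b) : K) = bK a * bK b := by
  cases a <;> cases b <;> simp [bK]

/-- A number below eight as an element of the field. -/
def phi (ω : K) (n : ℕ) : K := bK (n.testBit 0) + bK (n.testBit 1) * ω + bK (n.testBit 2) * ω ^ 2

theorem phi_xor (ω : K) (a b : ℕ) : phi ω (a ^^^ b) = phi ω a + phi ω b := by
  simp only [phi, Nat.testBit_xor, bK_xor]; ring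

theorem phi_zero (ω : K) : phi ω 0 = 0 := by simp [phi, bK]

theorem phi_one (ω : K) : phi ω 1 = 1 := by simp [phi, bK, Nat.testBit, Nat.shiftRight_eq_div_pow]

theorem mulE_formula : ∀ a < 8, ∀ b < 8,
    (mulE a b).testBit 0 = ((a.testBit 0 && b.testBit 0) ^^ (a.testBit 1 && b.testBit 2) ^^ (a.testBit 2 && b.testBit 1)) ∧
    (mulE a b).testBit 1 = ((a.testBit 0 && b.testBit 1) ^^ (a.testBit 1 && b.testBit 0) ^^ (a.testBit 1 && b.testBit 2) ^^
      (a.testBit 2 && b.testBit 1) ^^ (a.testBit 2 && b.testBit 2)) ∧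
    (mulE a b).testBit 2 = ((a.testBit 0 && b.testBit 2) ^^ (a.testBit 1 && b.testBit 1) ^^ (a.testBit 2 && b.testBit 0) ^^
      (a.testBit 2 && b.testBit 2)) := by decide +kernel

theorem phi_mul {ω : K} (hω : ω ^ 3 = ω + 1) (a b : ℕ) (ha : a < 8) (hb : b < 8) :
    phi ω (mulE a b) = phi ω a * phi ω b := by
  obtain ⟨h0, h1, h2⟩ := mulE_formula a ha b hb
  simp only [phi, h0, h1, h2, bK_xor, bK_and]
  linear_combination (-(bK (a.testBit 1) * bK (b.testBit 2)) - bK (a.testBit 2) * bK (b.testBit 1) -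
    bK (a.testBit 2) * bK (b.testBit 2) * ω) * hω

theorem inv_exists : ∀ a < 8, a ≠ 0 → ∃ b < 8, mulE a b = 1 := by decide +kernel

theorem phi_ne_zero {ω : K} (hω : ω ^ 3 = ω + 1) (a : ℕ) (ha : a < 8) (h0 : a ≠ 0) : phi ω a ≠ 0 := by
  obtain ⟨b, hb, hab⟩ := inv_exists a ha h0
  intro h
  have := phi_mul hω a b ha hb
  rw [hab, h, phi_one, zero_mul] at this
  exact one_ne_zero this

theorem phi_inj {ω : K} (hω : ω ^ 3 = ω + 1) {a b : ℕ} (ha : a < 8) (hb : b < 8) (h : phi ω a = phi ω b) :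
    a = b := by
  by_contra hne
  refine phi_ne_zero hω (a ^^^ b) (Nat.xor_lt_two_pow (n := 3) ha hb) (fun e => hne (by simpa using congrArg (· ^^^ b) e)) ?_
  rw [phi_xor, h, CharTwo.add_self_eq_zero]

theorem exists_omega [Fintype K] (hK : Fintype.card K = 8) : ∃ ω : K, ω ^ 3 = ω + 1 := by
  classical
  obtain ⟨w, hw, hw1⟩ : ∃ w : K, w ≠ 0 ∧ w ≠ 1 := by
    by_contra hc
    push Not at hc
    have hsub : (Finset.univ : Finset K) ⊆ {0, 1} := fun w _ => by
      by_cases h : w = 0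
      · simp [h]
      · simp [hc w h]
    have h1 := (Finset.card_le_card hsub).trans Finset.card_le_two
    rw [Finset.card_univ, hK] at h1
    omega
  have h7 : w ^ 7 = 1 := by have := FiniteField.pow_card_sub_one_eq_one w hw; rwa [hK] at this
  have h2 : (2 : K) = 0 := CharTwo.two_eq_zero
  have h : (w - 1) * ((w ^ 3 + w + 1) * (w ^ 3 + w ^ 2 + 1)) = 0 := by
    linear_combination h7 + (w ^ 4 - w ^ 3) * h2
  rcases mul_eq_zero.1 h with h | h
  · exact absurd (sub_eq_zero.1 h) hw1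
  rcases mul_eq_zero.1 h with h | h
  · exact ⟨w, by linear_combination h - (w + 1) * h2⟩
  · exact ⟨w + 1, by linear_combination h + (w ^ 2 + w - 1) * h2⟩

/-! ## Matrices -/

/-- The matrix of a code. -/
def toM (ω : K) (st : ℕ) : M8 K := Matrix.of fun i j => phi ω (getE st i.val j.val)

theorem toM_one (ω : K) : toM ω one = 1 := by
  have h : ∀ i j : Fin 8, getE one i.val j.val = if i = j then 1 else 0 := by decide +kernel
  ext i j
  simp only [toM, Matrix.of_apply, h i j, Matrix.one_apply]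
  split_ifs
  · exact phi_one ω
  · exact phi_zero ω

theorem toM_inj {ω : K} (hω : ω ^ 3 = ω + 1) {a b : ℕ} (h : toM ω a = toM ω b) (i j : Fin 8) :
    getE a i.val j.val = getE b i.val j.val :=
  phi_inj hω (getE_lt ..) (getE_lt ..) (congrFun (congrFun h i) j)

theorem single_mul_entry (a b : Fin 8) (t : K) (M : M8 K) (i j : Fin 8) :
    (Matrix.single a b t * M) i j = if i = a then t * M b j else 0 := by
  by_cases h : i = a
  · subst h; simp
  · rw [if_neg h, Matrix.single_mul_apply_of_ne _ _ _ _ _ h]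

theorem toM_op2 {ω : K} (hω : ω ^ 3 = ω + 1) (a b c d : Fin 8) (t st : ℕ) (ht : t < 8) :
    toM ω (op2 a.val b.val c.val d.val t st) = two a b c d (phi ω t) * toM ω st := by
  ext i j
  rw [two, add_mul, add_mul, one_mul, Matrix.add_apply, Matrix.add_apply, single_mul_entry, single_mul_entry]
  simp only [toM, Matrix.of_apply, getE_op2 _ _ _ _ _ _ _ _ ht j.2, phi_xor, Fin.val_inj]
  split_ifs <;> simp only [phi_mul hω _ _ ht (getE_lt ..), phi_zero]

theorem beq_ne {a b : ℕ} (h : a ≠ b) : Nat.beq a b = false :=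
  Bool.eq_false_iff.2 fun e => h (Nat.eq_of_beq_eq_true e)

/-- The matrix of a letter. -/
def matL (ω : K) (l : ℕ) : M8 K :=
  if l = 16 then two 1 2 6 5 1 else if l = 17 then two 2 1 5 6 1
  else if l < 8 then genP (phi ω l) (phi ω l ^ 2) (phi ω l ^ 4)
  else genN (phi ω (l % 8)) (phi ω (l % 8) ^ 2) (phi ω (l % 8) ^ 4)

theorem toM_letter {ω : K} (hω : ω ^ 3 = ω + 1) (l st : ℕ) : toM ω (letter l st) = matL ω l * toM ω st := by
  have sq : ∀ t < 8, phi ω (mulE t t) = phi ω t ^ 2 ∧ phi ω (mulE (mulE t t) (mulE t t)) = phi ω t ^ 4 := fun t ht => by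
    refine ⟨by rw [phi_mul hω _ _ ht ht, pow_two], ?_⟩
    rw [phi_mul hω _ _ (mulE_lt ..) (mulE_lt ..), phi_mul hω _ _ ht ht]; ring
  simp only [letter, matL]
  by_cases h16 : l = 16
  · subst h16
    simpa [phi_one] using toM_op2 hω 1 2 6 5 1 st (by norm_num)
  by_cases h17 : l = 17
  · subst h17
    rw [show Nat.beq 17 16 = false from rfl, cond_false]
    simpa [phi_one] using toM_op2 hω 2 1 5 6 1 st (by norm_num)
  have e16 : Nat.beq l 16 = false := beq_ne h16
  have e17 : Nat.beq l 17 = false := beq_ne h17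
  rw [e16, e17, if_neg h16, if_neg h17, cond_false, cond_false]
  by_cases h8 : l < 8
  · have e : Nat.blt l 8 = true := by simp [Nat.blt, Nat.ble_eq]; omega
    rw [e, cond_true, if_pos h8, show ((0 : ℕ)) = ((0 : Fin 8) : ℕ) from rfl,
      show op2 ((0 : Fin 8) : ℕ) 1 5 4 = op2 ((0 : Fin 8) : ℕ) ((1 : Fin 8) : ℕ) ((5 : Fin 8) : ℕ) ((4 : Fin 8) : ℕ) from rfl,
      show op2 2 3 7 6 = op2 ((2 : Fin 8) : ℕ) ((3 : Fin 8) : ℕ) ((7 : Fin 8) : ℕ) ((6 : Fin 8) : ℕ) from rfl,
      show op2 2 7 3 6 = op2 ((2 : Fin 8) : ℕ) ((7 : Fin 8) : ℕ) ((3 : Fin 8) : ℕ) ((6 : Fin 8) : ℕ) from rfl,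
      toM_op2 hω _ _ _ _ _ _ h8, toM_op2 hω _ _ _ _ _ _ (mulE_lt ..),
      toM_op2 hω _ _ _ _ _ _ (mulE_lt ..), (sq l h8).1, (sq l h8).2, genP]
    simp [mul_assoc]
  · have e : Nat.blt l 8 = false := by
      rw [Bool.eq_false_iff]; simp [Nat.blt, Nat.ble_eq]; omega
    have ht : l % 8 < 8 := Nat.mod_lt _ (by norm_num)
    rw [e, cond_false, if_neg h8, show op2 1 0 4 5 = op2 ((1 : Fin 8) : ℕ) ((0 : Fin 8) : ℕ) ((4 : Fin 8) : ℕ) ((5 : Fin 8) : ℕ) from rfl,
      show op2 3 2 6 7 = op2 ((3 : Fin 8) : ℕ) ((2 : Fin 8) : ℕ) ((6 : Fin 8) : ℕ) ((7 : Fin 8) : ℕ) from rfl,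
      show op2 6 3 7 2 = op2 ((6 : Fin 8) : ℕ) ((3 : Fin 8) : ℕ) ((7 : Fin 8) : ℕ) ((2 : Fin 8) : ℕ) from rfl,
      toM_op2 hω _ _ _ _ _ _ ht, toM_op2 hω _ _ _ _ _ _ (mulE_lt ..),
      toM_op2 hω _ _ _ _ _ _ (mulE_lt ..), (sq _ ht).1, (sq _ ht).2, genN]
    simp [mul_assoc]

/-- The matrix of a word. -/
def matF (ω : K) : ℕ → ℕ → M8 K
  | 0, _ => 1
  | f + 1, w => if w = 0 then 1 else matF ω f (w / 32) * matL ω (w % 32)

/-- The matrix of the reversed word. -/
def matRF (ω : K) : ℕ → ℕ → M8 K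
  | 0, _ => 1
  | f + 1, w => if w = 0 then 1 else matL ω (w % 32) * matRF ω f (w / 32)

theorem toM_appF {ω : K} (hω : ω ^ 3 = ω + 1) : ∀ f w st : ℕ, toM ω (appF f w st) = matF ω f w * toM ω st
  | 0, w, st => by simp [appF, matF]
  | f + 1, w, st => by
    simp only [appF, matF]
    by_cases h : w = 0
    · subst h; simp
    · rw [show Nat.beq w 0 = false from beq_ne h, cond_false, if_neg h, toM_appF hω f, toM_letter hω, mul_assoc]

theorem toM_appRF {ω : K} (hω : ω ^ 3 = ω + 1) : ∀ f w st : ℕ, toM ω (appRF f w st) = matRF ω f w * toM ω st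
  | 0, w, st => by simp [appRF, matRF]
  | f + 1, w, st => by
    simp only [appRF, matRF]
    by_cases h : w = 0
    · subst h; simp
    · rw [show Nat.beq w 0 = false from beq_ne h, cond_false, if_neg h, toM_letter hω, toM_appRF hω f, mul_assoc]

theorem letters_involutive : ∀ l : Fin 32, letter l.val (letter l.val one) = one := by decide +kernel

theorem matL_sq {ω : K} (hω : ω ^ 3 = ω + 1) (l : ℕ) (hl : l < 32) : matL ω l * matL ω l = 1 := by
  have h := toM_letter hω l (letter l one)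
  rw [letters_involutive ⟨l, hl⟩, toM_letter hω, toM_one, mul_one] at h
  exact h.symm

theorem matF_matRF {ω : K} (hω : ω ^ 3 = ω + 1) : ∀ f w : ℕ, matF ω f w * matRF ω f w = 1
  | 0, w => by simp [matF, matRF]
  | f + 1, w => by
    simp only [matF, matRF]
    split_ifs with h
    · simp
    · rw [mul_assoc, ← mul_assoc (matL ω (w % 32)), matL_sq hω _ (Nat.mod_lt _ (by norm_num)), one_mul,
        matF_matRF hω f]

/-- The matrix of a word. -/
def matW (ω : K) (w : ℕ) : M8 K := matF ω 64 w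

/-- The matrix of a reversed word. -/
def matR (ω : K) (w : ℕ) : M8 K := matRF ω 64 w

theorem toM_app {ω : K} (hω : ω ^ 3 = ω + 1) (w st : ℕ) : toM ω (app w st) = matW ω w * toM ω st := toM_appF hω _ _ _

theorem toM_appR {ω : K} (hω : ω ^ 3 = ω + 1) (w st : ℕ) : toM ω (appR w st) = matR ω w * toM ω st :=
  toM_appRF hω _ _ _

theorem matW_matR {ω : K} (hω : ω ^ 3 = ω + 1) (w : ℕ) : matW ω w * matR ω w = 1 := matF_matRF hω _ _

end Cfsg.Agent.H71.D4Two
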