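import Mathlib.Data.Nat.Basic

/-! Binary trees of certificate data. -/

set_option autoImplicit false

namespace Cfsg.Agent.H71.D4Two

/-- Binary trees of numbers. -/
inductive Tree where
  | E : Tree
  | L : ℕ → Tree
  | B : Tree → Tree → Tree

/-- Lookup by the bits of the index. -/
def Tree.get : Tree → ℕ → ℕ
  | .E, _ => 0
  | .L n, _ => n
  | .B a b, i => bif Nat.beq (i % 2) 0 then a.get (i / 2) else b.get (i / 2)

/-- Check a predicate on the range `[s, s + n)`. -/
def allFrom (p : ℕ → Bool) : ℕ → ℕ → Bool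
  | _, 0 => true
  | s, n + 1 => p s && allFrom p (s + 1) n

theorem allFrom_spec {p : ℕ → Bool} : ∀ {n s : ℕ}, allFrom p s n = true → ∀ i, s ≤ i → i < s + n → p i = true
  | 0, s, _, i, h1, h2 => by omega
  | n + 1, s, h, i, h1, h2 => by
    rw [allFrom, Bool.and_eq_true] at h
    rcases Nat.eq_or_lt_of_le h1 with rfl | h3
    · exact h.1
    · exact allFrom_spec h.2 i (by omega) (by omega)

end Cfsg.Agent.H71.D4Two
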